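import Cfsg.Agent.H92.EC.Main

/-!
# The counting contradiction
-/

set_option autoImplicit false
set_option linter.unusedSectionVars false

open scoped ComplexConjugate

namespace Cfsg.Agent.H92.EC

open Cfsg

variable {G : Type*} [Group G] [Finite G] {p : ℕ} [hp : Fact p.Prime] {H : Subgroup G}
  [Fintype G] [Fintype H]

theorem Crit.false (hc : Crit p H) (hp2 : p ≠ 2) : False := by
  classical
  have hH := hc.hyp
  obtain ⟨M, hM⟩ := H42.exists_isPModular hp.out
  set one := H26.oneIrr G with hone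
  set S := B0 M G with hS
  set S' := S.erase one with hS'
  have hord : ∀ a : H, ∃ i, orderOf (a : G) = p ^ i := fun a => by
    obtain ⟨i, hi⟩ := IsPGroup.iff_orderOf.1 hH.pg a
    exact ⟨i, (Subgroup.orderOf_coe a).trans hi⟩
  have hsing : ∀ a : H, a ≠ 1 → p ∣ orderOf (a : G) := fun a ha => by
    obtain ⟨i, hi⟩ := hord a
    rw [hi]
    refine dvd_pow_self p ?_
    rintro rfl
    rw [pow_zero, orderOf_eq_one_iff] at hi
    exact ha (Subtype.ext hi)
  -- real values
  have hreal : ∀ (χ : IrrCharacter G) (a : H), χ.1 a = ((χ.1 a).re : ℂ) := by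
    intro χ a
    refine (Complex.conj_eq_iff_re.1 ?_).symm
    rw [← H26.irr_inv, ← Subgroup.coe_inv]
    exact irr_eq_of_mem_orb χ (hc.inv_mem_orb hM a)
  set X : IrrCharacter G → H → ℝ := fun χ a => (χ.1 a).re with hX
  set d : IrrCharacter G → ℝ := fun χ => (Cfsg.charDegree χ.1 : ℝ) with hd
  have hdpos : ∀ χ, 0 < d χ := fun χ => Nat.cast_pos.2 (H43.irr_charDegree_pos χ)
  have hdc : ∀ χ : IrrCharacter G, χ.1 1 = (d χ : ℂ) := fun χ => by
    rw [H43.irr_charDegree_spec]; simp [hd]
  have hXc : ∀ (χ : IrrCharacter G) (a : H), χ.1 a = (X χ a : ℂ) := hreal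
  have hXle : ∀ χ a, |X χ a| ≤ d χ := fun χ a =>
    (Complex.abs_re_le_norm _).trans (norm_irr_le χ _)
  have hX1 : ∀ a, X one a = 1 := fun a => by simp [hX, hone, H26.oneIrr_val]
  have hd1 : d one = 1 := by
    have := hdc one
    rw [hone, H26.oneIrr_val] at this
    exact_mod_cast this.symm
  have hsplit : ∀ F : IrrCharacter G → ℝ, ∑ χ ∈ S, F χ = F one + ∑ χ ∈ S', F χ := fun F =>
    (Finset.add_sum_erase S F (one_mem_B0 hM)).symm
  have hnl : ∀ χ ∈ S', χ.1 1 ≠ 1 := by
    intro χ hχ h1
    refine (Finset.mem_erase.1 hχ).1 (hc.eq_oneIrr hM hp2 ?_)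
    by_contra hle
    have hk : H43.charKer χ = ⊥ := by_contra fun hne => hle (hc.commutator_le hne)
    -- a linear character is trivial on commutators
    have hmem : ∀ g x : G, g * x * g⁻¹ * x⁻¹ ∈ H43.charKer χ := by
      intro g x
      rw [H43.mem_charKer]
      have hn : ∀ y, χ.1 y * conj (χ.1 y) = 1 := by
        intro y
        obtain ⟨n, ρ, hρ, e⟩ := χ.2
        have hfin : Module.finrank ℂ (Fin n → ℂ) = 1 := by
          have : (Module.finrank ℂ (Fin n → ℂ) : ℂ) = 1 := by rw [← ρ.char_one, e, h1]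
          exact_mod_cast this
        obtain ⟨μ, hμ, hs⟩ := H25.exists_char_eq_sum_roots ρ y
        rw [Complex.mul_conj, ← e, hs, Complex.normSq_eq_norm_sq]
        haveI : Subsingleton (Fin (Module.finrank ℂ (Fin n → ℂ))) := by rw [hfin]; infer_instance
        rw [Fintype.sum_subsingleton _ (⟨0, by omega⟩ : Fin (Module.finrank ℂ (Fin n → ℂ))),
          Complex.norm_eq_one_of_pow_eq_one (hμ _) (orderOf_pos _).ne']
        simp
      have hmul : ∀ y z, χ.1 (y * z) = χ.1 y * χ.1 z := by
        intro y z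
        obtain ⟨n, ρ, hρ, e⟩ := χ.2
        have hfin : Module.finrank ℂ (Fin n → ℂ) = 1 := by
          have : (Module.finrank ℂ (Fin n → ℂ) : ℂ) = 1 := by rw [← ρ.char_one, e, h1]
          exact_mod_cast this
        obtain ⟨v, hv, hspan⟩ := finrank_eq_one_iff'.1 hfin
        have hsc : ∀ w, ∃ c : ℂ, ρ w = c • LinearMap.id := fun w => by
          obtain ⟨c, hc⟩ := hspan (ρ w v)
          refine ⟨c, LinearMap.ext fun u => ?_⟩
          obtain ⟨d', rfl⟩ := hspan u
          rw [map_smul, ← hc, LinearMap.smul_apply, LinearMap.id_apply, smul_comm]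
        obtain ⟨c, hcy⟩ := hsc y
        obtain ⟨c', hcz⟩ := hsc z
        rw [← e]
        simp only [Representation.character, map_mul, hcy, hcz, map_smul, smul_eq_mul,
          smul_mul_assoc, mul_smul_comm, Module.End.mul_eq_comp, LinearMap.comp_id,
          LinearMap.smul_comp, LinearMap.comp_smul, LinearMap.trace_id, hfin, Nat.cast_one]
        ring
      rw [h1, hmul, hmul, hmul, H26.irr_inv, H26.irr_inv]
      linear_combination hn g * χ.1 x * conj (χ.1 x) + hn x
    exact hle (by
      rw [commutator_def, Subgroup.commutator_le]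
      exact fun g _ x _ => hmem g x)
  have heta : ∀ χ ∈ S', ∀ a : H, a ≠ 1 → eta hH χ a ≠ 0 := fun χ hχ a ha =>
    eta_ne_zero hH (hc.faithful (hnl χ hχ))
      (hc.exists_conj_notMem a.2 fun h => ha (Subtype.ext h))
  have hsect : ∀ χ ∈ S, Sect p H χ := fun χ hχ => hc.sect hM hχ
  -- orthogonality
  have horth : ∀ a c : H, c ∉ orb a → ∑ χ ∈ S, X χ a * X χ c = 0 := by
    intro a c hne
    have h := sum_B0_section hM (hord a) (hord c) fun h => hne (mem_orb_of_isConj hH h)
    simp only [hXc, Complex.conj_ofReal, ← Complex.ofReal_mul, ← Complex.ofReal_sum] at h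
    exact_mod_cast h
  have horth1 : ∀ a : H, a ≠ 1 → ∑ χ ∈ S, d χ * X χ a = 0 := by
    intro a ha
    have h := sum_B0_regular hM (u := (1 : G)) (by simpa using hp.out.not_dvd_one) (hsing a ha)
    simp only [hXc, hdc, Complex.conj_ofReal, ← Complex.ofReal_mul, ← Complex.ofReal_sum] at h
    exact_mod_cast h
  have hsq : ∀ a : H, (Nat.card H : ℝ) ≤ ∑ χ ∈ S, X χ a * X χ a := by
    intro a
    obtain ⟨n, hn, e⟩ := exists_sum_B0_sq hM (hord a) H hH.pg fun x hx =>
      Subgroup.mem_centralizer_singleton_iff.2 (hH.comm x hx a a.2)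
    simp only [hXc, Complex.conj_ofReal, ← Complex.ofReal_mul, ← Complex.ofReal_sum] at e
    have : ∑ χ ∈ S, X χ a * X χ a = ((Nat.card H * n : ℕ) : ℝ) := by exact_mod_cast e
    rw [this]
    exact_mod_cast Nat.le_mul_of_pos_right _ hn
  -- at most two orbits
  have hthree : ∀ a b c : H, a ≠ 1 → b ≠ 1 → c ≠ 1 → b ∉ orb a → c ∉ orb a → c ∉ orb b →
      False := by
    intro a b c ha hb hcc hab hac hbc
    obtain ⟨χ, hχ, hpd⟩ : ∃ χ ∈ S', ¬ p ∣ Cfsg.charDegree χ.1 := by
      by_contra! h
      have h1 := horth1 a ha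
      rw [hsplit, hd1, hX1, one_mul] at h1
      choose e he using h
      have h2 : (∑ χ ∈ S'.attach, (e χ.1 χ.2 : ℂ) * χ.1.1 a) * (p : ℂ) = -1 := by
        rw [Finset.sum_mul]
        have h3 : ((∑ χ ∈ S', d χ * X χ a : ℝ) : ℂ) = -1 := by
          have : ∑ χ ∈ S', d χ * X χ a = -1 := by linarith
          rw [this]; simp
        rw [← h3, Complex.ofReal_sum, ← Finset.sum_attach S' (fun χ => ((d χ * X χ a : ℝ) : ℂ))]
        refine Finset.sum_congr rfl fun χ _ => ?_
        rw [Complex.ofReal_mul, ← hXc, ← hdc, H43.irr_charDegree_spec, he χ.1 χ.2]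
        push_cast
        ring
      have hint : IsIntegral ℤ (((-1 : ℤ) : ℂ) / ((p : ℤ) : ℂ)) := by
        have : ((-1 : ℤ) : ℂ) / ((p : ℤ) : ℂ) =
            ∑ χ ∈ S'.attach, (e χ.1 χ.2 : ℂ) * χ.1.1 a := by
          rw [div_eq_iff (by exact_mod_cast hp.out.ne_zero)]
          push_cast
          rw [h2]
        rw [this]
        exact IsIntegral.sum _ fun χ _ => IsIntegral.mul (by
          simpa using isIntegral_algebraMap (R := ℤ) (A := ℂ) (x := (e χ.1 χ.2 : ℤ)))
          (H43.irr_isIntegral _ _)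
      have := H42.dvd_of_isIntegral_div (by exact_mod_cast hp.out.ne_zero) hint
      rw [dvd_neg, ← Nat.cast_one, Int.natCast_dvd_natCast] at this
      exact hp.out.not_dvd_one this
    have hne : ∀ x : H, x ≠ 1 → (χ.1 x).re ≠ 0 := by
      intro x hx h0
      obtain ⟨j, hj⟩ := hord x
      refine hpd (H42.dvd_degree_of_eq_zero hp.out (H26.irr_isCharacter χ) hj ?_)
      rw [hXc, show X χ x = 0 from h0, Complex.ofReal_zero]
    have hs := hsect χ (Finset.mem_of_mem_erase hχ)
    have r := fun x y (hx : x ≠ 1) (hy : y ≠ 1) (hxy : y ∉ orb x) =>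
      re_mul_re_neg hH hs (hc.inv_mem_orb hM x) (hc.inv_mem_orb hM y) hxy (heta χ hχ x hx)
        (heta χ hχ y hy) (hne x hx) (hne y hy)
    have h1 := r a b ha hb hab
    have h2 := r a c ha hcc hac
    have h3 := r b c hb hcc hbc
    nlinarith [mul_pos_of_neg_of_neg h1 h2, sq_nonneg (χ.1 a).re]
  obtain ⟨a, ha⟩ : ∃ a : H, a ≠ 1 := by
    by_contra! h
    exact hc.ne_bot (Subgroup.eq_bot_iff_forall _ |>.2 fun x hx =>
      congrArg Subtype.val (h ⟨x, hx⟩))
  have hinv_ne : ∀ x : H, x ≠ 1 → x⁻¹ ≠ x := by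
    intro x hx h
    have h2 : (x : G) ^ 2 = 1 := by
      rw [pow_two, ← Subgroup.coe_mul, mul_eq_one_iff_eq_inv.2 h.symm]; rfl
    have h3 := (hsing x hx).trans (orderOf_dvd_of_pow_eq_one h2)
    exact hp2 ((Nat.prime_dvd_prime_iff_eq hp.out Nat.prime_two).1 h3)
  have horb2 : ∀ x : H, x ≠ 1 → 2 ≤ (orb x).card := fun x hx =>
    Finset.one_lt_card.2 ⟨x, self_mem_orb x, x⁻¹, hc.inv_mem_orb hM x, (hinv_ne x hx).symm⟩
  by_cases hone' : ∀ x : H, x ≠ 1 → x ∈ orb a
  · -- one orbit
    have horb : orb a = Finset.univ.erase 1 := by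
      ext x
      simp only [Finset.mem_erase, Finset.mem_univ, and_true]
      exact ⟨fun h h1 => one_notMem_orb ha (h1 ▸ h), hone' x⟩
    set k : ℕ := (orb a).card with hk
    have hq : Nat.card H = k + 1 := by
      rw [hk, horb, Finset.card_erase_of_mem (Finset.mem_univ _), Finset.card_univ,
        Nat.card_eq_fintype_card]
      have : 0 < Fintype.card H := Fintype.card_pos
      omega
    have hk2 : 2 ≤ k := horb2 a ha
    have hX_eq : ∀ (χ : IrrCharacter G) (x : H), x ≠ 1 → X χ x = X χ a := fun χ x hx => by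
      simp only [hX]; rw [irr_eq_of_mem_orb χ (hone' x hx)]
    -- the product identity at `a`, `a`
    have hE : ∀ χ ∈ S, (k : ℂ) * χ.1 a * χ.1 a =
        χ.1 1 * (((k : ℂ) - 1) * χ.1 a + mu hH χ a) := by
      intro χ hχ
      have h := product_identity hH (hsect χ hχ) a a
      rw [if_pos (hc.inv_mem_orb hM a)] at h
      rw [← hk] at h
      rw [h]
      congr 1
      have hmem : a⁻¹ ∈ orb a := hc.inv_mem_orb hM a
      rw [← Finset.add_sum_erase _ _ hmem, inv_mul_cancel, Subgroup.coe_one,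
        Finset.sum_congr rfl (g := fun _ => χ.1 a) fun o ho => ?_, Finset.sum_const,
        Finset.card_erase_of_mem hmem, nsmul_eq_mul, ← hk, Nat.cast_sub (by omega : 1 ≤ k), eta]
      · ring
      · refine irr_eq_of_mem_orb χ (hone' _ fun h1 => (Finset.mem_erase.1 ho).1 ?_)
        exact eq_inv_of_mul_eq_one_left h1
    have hmu : ∑ χ ∈ S, mu hH χ a * χ.1 a = 0 := by
      simp only [mu, div_mul_eq_mul_div, ← Finset.sum_div, Finset.sum_mul]
      rw [Finset.sum_comm, Finset.sum_eq_zero, zero_div]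
      intro g hg
      obtain ⟨Q, hQ, v, hv, e⟩ := hH.prod_decomp g a.2 (inv_mem a.2)
      rw [mem_fiber.1 hg, mul_inv_cancel, one_mul] at e
      have hu : ¬ p ∣ orderOf (g * (a : G) * g⁻¹ * (a : G)⁻¹) := by
        rw [e, show v = ((⟨v, hv⟩ : Q) : G) from rfl, Subgroup.orderOf_coe]
        exact fun h => hQ.coprime (h.trans (orderOf_dvd_natCard _))
      have h := sum_B0_regular hM hu (hsing a ha)
      simpa only [hXc _ a, Complex.conj_ofReal] using h
    set c := ∑ χ ∈ S, X χ a * X χ a with hcdef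
    have hcub : (k : ℝ) * ∑ χ ∈ S, X χ a * X χ a * X χ a / d χ = ((k : ℝ) - 1) * c := by
      have h : ∑ χ ∈ S, (k : ℂ) * χ.1 a * χ.1 a * χ.1 a / χ.1 1 =
          ((k : ℂ) - 1) * ∑ χ ∈ S, χ.1 a * χ.1 a := by
        rw [Finset.mul_sum, ← add_zero (∑ χ ∈ S, ((k : ℂ) - 1) * (χ.1 a * χ.1 a)), ← hmu,
          ← Finset.sum_add_distrib]
        refine Finset.sum_congr rfl fun χ hχ => ?_
        rw [div_eq_iff (H26.irr_one_ne_zero χ), hE χ hχ]
        ring
      simp only [hXc, hdc] at h
      rw [Finset.mul_sum]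
      refine Complex.ofReal_injective ?_
      push_cast
      convert h using 2
      · ring
      · simp [hcdef]
    have hbnd : ∀ χ ∈ S', (k : ℝ) * X χ a ≤ d χ := by
      intro χ hχ
      have hs := hsect χ (Finset.mem_of_mem_erase hχ)
      obtain ⟨ψ, hψ, hw⟩ : ∃ ψ : IrrCharacter H, ψ ≠ H26.oneIrr H ∧ wt χ ψ ≠ 0 := by
        by_contra! h
        have hval : ∀ x : H, (Nat.card H : ℂ) * ((orb x).card * χ.1 x) =
            (orb x).card * wt χ (H26.oneIrr H) := by
          intro x
          rw [← sum_orbSum_mul_wt hH χ x, Finset.sum_eq_single (H26.oneIrr H)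
            (fun ψ _ hψ => by rw [h ψ hψ, mul_zero]) (fun h' => (h' (Finset.mem_univ _)).elim),
            orbSum_one]
        have h1 := hval a
        have h2 := hval 1
        rw [← mul_assoc, mul_comm (Nat.card H : ℂ), mul_assoc] at h1 h2
        have h1' := mul_left_cancel₀ (card_orb_ne_zero a) h1
        have h2' := mul_left_cancel₀ (card_orb_ne_zero (1 : H)) h2
        have := mul_left_cancel₀ (Nat.cast_ne_zero.2 Nat.card_pos.ne') (h1'.trans h2'.symm)
        exact ha (Subtype.ext (hc.faithful (hnl χ hχ) a this))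
      have hX1' : orbSum a ψ = -1 := by
        rw [orbSum, horb, Finset.sum_erase_eq_sub (Finset.mem_univ _), lin_sum_eq_zero hH hψ,
          lin_one hH]
        ring
      have h := weight_identity hH hs a ψ
      rw [hX1', ← hk] at h
      have hn := norm_wt_add_eta_le hH hs a ψ
      have h' := congrArg norm h
      rw [hXc, hdc, norm_mul, norm_mul, norm_mul, norm_mul, norm_neg, norm_one, one_mul,
        Complex.norm_natCast, Complex.norm_real, Complex.norm_real, Real.norm_eq_abs,
        Real.norm_eq_abs, abs_of_pos (hdpos χ)] at h'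
      have hwr : wt χ ψ = ((wt χ ψ).re : ℂ) :=
        (Complex.conj_eq_iff_re.1 (conj_wt χ ψ)).symm
      have hw0 : 0 < (wt χ ψ).re := lt_of_le_of_ne ((norm_nonneg _).trans hn) fun h0 =>
        hw (by rw [hwr, ← h0, Complex.ofReal_zero])
      rw [hwr, Complex.norm_real, Real.norm_eq_abs, abs_of_pos hw0] at h'
      have h3 : (k : ℝ) * |X χ a| * (wt χ ψ).re ≤ d χ * (wt χ ψ).re := by
        rw [h', ← hwr]
        exact mul_le_mul_of_nonneg_left hn (hdpos χ).le
      exact (mul_le_mul_of_nonneg_left (le_abs_self _) (Nat.cast_nonneg k)).trans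
        (le_of_mul_le_mul_right h3 hw0)
    have hT : ∑ χ ∈ S', X χ a * X χ a * (1 - (k : ℝ) * X χ a / d χ) =
        (k : ℝ) - 1 - ((k : ℝ) - 2) * c := by
      have h1 := hcub
      rw [hsplit, hX1, hd1, mul_add, Finset.mul_sum] at h1
      have h2 : ∑ χ ∈ S', X χ a * X χ a = c - 1 := by
        rw [hcdef, hsplit (fun χ => X χ a * X χ a), hX1]; ring
      calc ∑ χ ∈ S', X χ a * X χ a * (1 - (k : ℝ) * X χ a / d χ)
          = ∑ χ ∈ S', X χ a * X χ a - ∑ χ ∈ S', (k : ℝ) * (X χ a * X χ a * X χ a / d χ) := by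
            rw [← Finset.sum_sub_distrib]; exact Finset.sum_congr rfl fun χ _ => by ring
        _ = _ := by rw [h2]; linarith [h1]
    have hnn : ∀ χ ∈ S', 0 ≤ X χ a * X χ a * (1 - (k : ℝ) * X χ a / d χ) := fun χ hχ =>
      mul_nonneg (mul_self_nonneg _) (sub_nonneg.2 ((div_le_one (hdpos χ)).2 (hbnd χ hχ)))
    have hcq : (k : ℝ) + 1 ≤ c := by
      have := hsq a
      rw [hq] at this
      push_cast at this
      exact this
    rcases Nat.lt_or_ge 2 k with hk3 | hk3
    · have h0 := Finset.sum_nonneg hnn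
      rw [hT] at h0
      have hk3' : (3 : ℝ) ≤ k := by exact_mod_cast hk3
      nlinarith
    · have hkeq : k = 2 := le_antisymm hk3 hk2
      rw [hkeq] at hT hnn
      have hT1 : ((2 : ℕ) : ℝ) - 1 - (((2 : ℕ) : ℝ) - 2) * c = 1 := by push_cast; ring
      rw [hT1] at hT
      obtain ⟨χ, hχ, hneg⟩ : ∃ χ ∈ S', X χ a < 0 := by
        by_contra! h
        have h1 := horth1 a ha
        rw [hsplit, hd1, hX1] at h1
        have := Finset.sum_nonneg fun χ hχ => mul_nonneg (hdpos χ).le (h χ hχ)
        linarith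
      obtain ⟨m, hm⟩ := H43.exists_eq_add_mul χ H hH.comm hc.ne_bot (c := χ.1 a) fun g hg hg1 => by
        rw [hXc χ ⟨g, hg⟩ |>.trans (by rw [hX_eq χ ⟨g, hg⟩ fun h => hg1 (congrArg Subtype.val h)]),
          ← hXc]
      have hint : X χ a = (((Cfsg.charDegree χ.1 : ℤ) - Nat.card H * m : ℤ) : ℝ) := by
        have : χ.1 a = (((Cfsg.charDegree χ.1 : ℤ) - Nat.card H * m : ℤ) : ℂ) := by
          rw [H43.irr_charDegree_spec] at hm
          push_cast
          linear_combination -hm
        rw [hX]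
        simp only [this, Complex.intCast_re]
      have hle : X χ a ≤ -1 := by
        rw [hint] at hneg ⊢
        have : ((Cfsg.charDegree χ.1 : ℤ) - Nat.card H * m) < 0 := by exact_mod_cast hneg
        exact_mod_cast Int.le_sub_one_of_lt this
      have h1 := Finset.single_le_sum hnn hχ
      rw [hkeq] at hcq
      have hpos : 0 < -(2 * X χ a) / d χ := div_pos (by linarith) (hdpos χ)
      have h2 : 1 < X χ a * X χ a * (1 - ((2 : ℕ) : ℝ) * X χ a / d χ) := by
        push_cast
        rw [show (1 : ℝ) - 2 * X χ a / d χ = 1 + -(2 * X χ a) / d χ by ring]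
        have h11 : 1 ≤ X χ a * X χ a := by nlinarith
        nlinarith [mul_le_mul_of_nonneg_right h11 hpos.le]
      rw [hT] at h1
      push_cast at h1 h2
      linarith
  · -- two orbits
    push Not at hone'
    obtain ⟨b, hb, hab⟩ := hone'
    have hcover : ∀ x : H, x ≠ 1 → x ∈ orb a ∨ x ∈ orb b := by
      intro x hx
      by_contra! h
      exact hthree a b x ha hb hx hab h.1 h.2
    have hba : a ∉ orb b := fun h => hab (mem_orb_comm.1 h)
    have hbound : ∀ a b : H, a ≠ 1 → b ≠ 1 → b ∉ orb a →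
        (∀ x : H, x ≠ 1 → x ∈ orb a ∨ x ∈ orb b) →
        ∃ n : ℕ, n ≤ (orb a).card ∧ (n : ℝ) * (Nat.card H : ℝ) ≤ 2 * (orb a).card ∧
          ((orb a).card - n : ℝ) * (Nat.card H : ℝ) ≤ 2 * (orb a).card := by
      intro a b ha hb hab hcov
      set A := (orb a).card with hA
      set F := (orb a).filter fun o => o * b ∈ orb a with hF
      refine ⟨F.card, Finset.card_filter_le _ _, ?_⟩
      have hE : ∀ χ ∈ S, (A : ℂ) * χ.1 a * χ.1 b =
          χ.1 1 * ((F.card : ℂ) * χ.1 a + ((A : ℂ) - F.card) * χ.1 b) := by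
        intro χ hχ
        have hbn : b⁻¹ ∉ orb a := fun h => hab (by
          rw [← inv_inv b]
          exact (orb_eq_of_mem (hc.inv_mem_orb hM a)) ▸ inv_mem_orb_inv.2 h)
        have h := product_identity hH (hsect χ hχ) a b
        rw [if_neg hbn, add_zero, ← hA] at h
        rw [h]
        congr 1
        rw [← Finset.sum_filter_add_sum_filter_not (orb a) (fun o => o * b ∈ orb a), ← hF]
        have e1 : ∑ o ∈ F, χ.1 ((o * b : H) : G) = (F.card : ℂ) * χ.1 a := by
          rw [Finset.sum_congr rfl fun o ho =>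
            irr_eq_of_mem_orb χ (Finset.mem_filter.1 ho).2, Finset.sum_const, nsmul_eq_mul]
        have e2 : ∀ o ∈ (orb a).filter (fun o => ¬ o * b ∈ orb a),
            χ.1 ((o * b : H) : G) = χ.1 b := by
          intro o ho
          obtain ⟨ho1, ho2⟩ := Finset.mem_filter.1 ho
          refine irr_eq_of_mem_orb χ ((hcov _ fun h1 => hbn ?_).resolve_left ho2)
          rw [← eq_inv_of_mul_eq_one_left h1]
          exact ho1
        rw [e1, Finset.sum_congr rfl e2, Finset.sum_const, nsmul_eq_mul]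
        congr 1
        have := Finset.card_filter_add_card_filter_not (s := orb a) (fun o => o * b ∈ orb a)
        rw [← hF, ← hA] at this
        have h' : ((A : ℂ)) = F.card + ((orb a).filter (fun o => ¬ o * b ∈ orb a)).card := by
          exact_mod_cast this.symm
        rw [h']; ring
      have hER : ∀ χ ∈ S, (A : ℝ) * (X χ a * X χ b / d χ) =
          (F.card : ℝ) * X χ a + ((A : ℝ) - F.card) * X χ b := by
        intro χ hχ
        have h := hE χ hχ
        simp only [hXc, hdc] at h
        have h' : (A : ℝ) * X χ a * X χ b =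
            d χ * ((F.card : ℝ) * X χ a + ((A : ℝ) - F.card) * X χ b) := by exact_mod_cast h
        have := (hdpos χ).ne'
        field_simp
        linear_combination h'
      have hab0 := horth a b hab
      have hneg : ∀ χ ∈ S', X χ a * X χ b ≤ 0 := by
        intro χ hχ
        by_contra! hpos
        have := re_mul_re_neg hH (hsect χ (Finset.mem_of_mem_erase hχ)) (hc.inv_mem_orb hM a)
          (hc.inv_mem_orb hM b) hab (heta χ hχ a ha) (heta χ hχ b hb)
          (left_ne_zero_of_mul hpos.ne') (right_ne_zero_of_mul hpos.ne')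
        exact lt_asymm hpos this
      have hsum1 : ∑ χ ∈ S', -(X χ a * X χ b) = 1 := by
        rw [hsplit, hX1, hX1] at hab0
        rw [Finset.sum_neg_distrib]
        linarith
      have hkey : ∀ x : H, ∑ χ ∈ S, X χ a * X χ b / d χ * X χ x ≤ 2 := by
        intro x
        rw [hsplit, hX1, hX1, hX1, hd1]
        have : ∑ χ ∈ S', X χ a * X χ b / d χ * X χ x ≤ 1 := by
          rw [← hsum1]
          refine Finset.sum_le_sum fun χ hχ => ?_
          rw [div_mul_eq_mul_div, div_le_iff₀ (hdpos χ)]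
          have h2 := abs_le.1 (hXle χ x)
          nlinarith [hneg χ hχ]
        linarith
      have hA0 : (0 : ℝ) < A := Nat.cast_pos.2 (Finset.card_pos.2 ⟨a, self_mem_orb a⟩)
      have hFA : (F.card : ℝ) ≤ A := by exact_mod_cast Finset.card_filter_le _ _
      have hside : ∀ x : H, (A : ℝ) * ∑ χ ∈ S, X χ a * X χ b / d χ * X χ x =
          (F.card : ℝ) * ∑ χ ∈ S, X χ a * X χ x +
            ((A : ℝ) - F.card) * ∑ χ ∈ S, X χ b * X χ x := by
        intro x
        rw [Finset.mul_sum, Finset.mul_sum, Finset.mul_sum, ← Finset.sum_add_distrib]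
        refine Finset.sum_congr rfl fun χ hχ => ?_
        linear_combination X χ x * hER χ hχ
      constructor
      · have h := hside a
        rw [Finset.sum_congr rfl (fun χ _ => mul_comm (X χ b) (X χ a)), hab0, mul_zero,
          add_zero] at h
        nlinarith [mul_le_mul_of_nonneg_left (hkey a) hA0.le,
          mul_le_mul_of_nonneg_left (hsq a) (Nat.cast_nonneg (α := ℝ) F.card)]
      · have h := hside b
        rw [hab0, mul_zero, zero_add] at h
        nlinarith [mul_le_mul_of_nonneg_left (hkey b) hA0.le,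
          mul_le_mul_of_nonneg_left (hsq b) (sub_nonneg.2 hFA)]
    obtain ⟨n, hn, h1, h2⟩ := hbound a b ha hb hab hcover
    have hdisj : Disjoint (orb a) (orb b) := Finset.disjoint_left.2 fun x hxa hxb =>
      hab ((orb_eq_of_mem hxa).symm.trans (orb_eq_of_mem hxb) ▸ self_mem_orb b)
    have hcard : 5 ≤ Nat.card H := by
      have h3 : insert (1 : H) (orb a ∪ orb b) ⊆ Finset.univ := Finset.subset_univ _
      have h4 := Finset.card_le_card h3
      rw [Finset.card_insert_of_notMem (by
        rw [Finset.mem_union]; rintro (h | h)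
        exacts [one_notMem_orb ha h, one_notMem_orb hb h]), Finset.card_union_of_disjoint hdisj,
        Finset.card_univ, ← Nat.card_eq_fintype_card] at h4
      have := horb2 a ha
      have := horb2 b hb
      omega
    have hcard' : (5 : ℝ) ≤ Nat.card H := by exact_mod_cast hcard
    have hA0 : (1 : ℝ) ≤ ((orb a).card : ℝ) := by
      exact_mod_cast Finset.card_pos.2 ⟨a, self_mem_orb a⟩
    nlinarith

end Cfsg.Agent.H92.EC
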