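import Cfsg.Agent.H92.EC.Twist
import Cfsg.Agent.H92.EC.Product
import Cfsg.Agent.H27.Dual
import Cfsg.Agent.H43.PPrimeDegree

/-!
# Fixed points of an extremely closed subgroup in the `p'`-part of its normal closure
-/

set_option autoImplicit false
set_option linter.unusedSectionVars false

open scoped ComplexConjugate

namespace Cfsg.Agent.H92.EC

open Cfsg

universe u

variable {p : ℕ} [hp : Fact p.Prime]

section Basics

variable {G : Type u} [Group G] [Finite G] {H R : Subgroup G} [R.Normal]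

theorem eq_one_of_mem_inf (hH : Hyp p H) (hR : ¬ p ∣ Nat.card R) {x : G} (hx : x ∈ H)
    (hxR : x ∈ R) : x = 1 := by
  obtain ⟨i, hi⟩ := hH.pg ⟨x, hx⟩
  exact eq_one_of_pow_card (k := i) hR
    (congrArg Subtype.val (pow_card_eq_one' (x := (⟨x, hxR⟩ : R)))) (congrArg Subtype.val hi)

/-- Elements of `R` normalizing `H` centralize it. -/
theorem comm_of_mem (hH : Hyp p H) (hR : ¬ p ∣ Nat.card R) {r : G} (hr : r ∈ R) (hrn : r ∈ NH H)
    {h : G} (hh : h ∈ H) : r * h = h * r := by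
  have h1 : r * h * r⁻¹ * h⁻¹ ∈ H := H.mul_mem (conj_mem_of_mem_NH hrn hh) (H.inv_mem hh)
  have h2 : r * h * r⁻¹ * h⁻¹ ∈ R := by
    rw [show r * h * r⁻¹ * h⁻¹ = r * (h * r⁻¹ * h⁻¹) by group]
    exact R.mul_mem hr (Subgroup.Normal.conj_mem inferInstance _ (R.inv_mem hr) h)
  have := eq_one_of_mem_inf hH hR h1 h2
  rwa [mul_inv_eq_one, mul_inv_eq_iff_eq_mul] at this

theorem mem_NH_of_comm {c : G} (h : ∀ y ∈ H, y * c = c * y) : c ∈ NH H := by
  refine Subgroup.mem_normalizer_iff.2 fun y => ⟨fun hy => ?_, fun hy => ?_⟩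
  · rwa [← h y hy, mul_inv_cancel_right]
  · have h1 := h _ hy
    rw [inv_mul_cancel_right] at h1
    have := mul_left_cancel h1
    rwa [← this] at hy

/-- `R` is the product of a normal-closure part and fixed points. -/
theorem exists_decomp (hH : Hyp p H) (hR : ¬ p ∣ Nat.card R) {r : G} (hr : r ∈ R) :
    ∃ d ∈ Subgroup.normalClosure (H : Set G) ⊓ R, r * d ∈ R ⊓ NH H := by
  set D := Subgroup.normalClosure (H : Set G) ⊓ R
  have hhM : ∀ h ∈ H, h ∈ Subgroup.normalClosure (H : Set G) := fun h hh =>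
    Subgroup.le_normalClosure hh
  have hpD : ¬ p ∣ Nat.card D := fun hd => hR (hd.trans (Subgroup.card_dvd_of_le inf_le_right))
  have hnD : H ≤ NH D := fun k _ => by
    rw [NH, Subgroup.normalizer_eq_top_iff.2 (inferInstance : D.Normal)]
    exact Subgroup.mem_top k
  have hkey : ∀ h ∈ H, r⁻¹ * (h * r * h⁻¹) ∈ D := by
    intro h hh
    refine ⟨?_, ?_⟩
    · rw [show r⁻¹ * (h * r * h⁻¹) = (r⁻¹ * h * (r⁻¹)⁻¹) * h⁻¹ by group]
      exact (Subgroup.normalClosure _).mul_mem
        (Subgroup.normalClosure_normal.conj_mem h (hhM h hh) r⁻¹)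
        ((Subgroup.normalClosure _).inv_mem (hhM h hh))
    · exact R.mul_mem (R.inv_mem hr) (Subgroup.Normal.conj_mem inferInstance r hr h)
  obtain ⟨d, hd, hfix⟩ := exists_fixed hH.pg hnD hpD hkey
  exact ⟨d, hd, R.mul_mem hr hd.2, mem_NH_of_comm hfix⟩

/-- The kernel of a pair lies in `R`. -/
theorem Kernel.le_of_sup_eq_top (hH : Hyp p H) (hG : H ⊔ R = ⊤) {g : G} {Q : Subgroup G}
    (hQ : Kernel p H g Q) : Q ≤ R := by
  intro x hx
  obtain ⟨h, hh, r, hr, e⟩ := Subgroup.mem_sup_of_normal_right.1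
    (show x ∈ H ⊔ R by rw [hG]; exact Subgroup.mem_top x)
  have hxe : QuotientGroup.mk' R x = QuotientGroup.mk' R h := by
    rw [← e, map_mul, show QuotientGroup.mk' R r = 1 from (QuotientGroup.eq_one_iff r).2 hr,
      mul_one]
  obtain ⟨i, hi⟩ := hH.pg ⟨h, hh⟩
  refine (QuotientGroup.eq_one_iff x).1 ?_
  refine eq_one_of_pow_card (k := i) hQ.coprime ?_ ?_
  · show QuotientGroup.mk' R x ^ Nat.card Q = 1
    rw [← map_pow, show x ^ Nat.card Q = 1 from
      congrArg Subtype.val (pow_card_eq_one' (x := (⟨x, hx⟩ : Q))), map_one]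
  · show QuotientGroup.mk' R x ^ p ^ i = 1
    rw [hxe, ← map_pow, show h ^ p ^ i = 1 from congrArg Subtype.val hi, map_one]

end Basics

theorem fixed_eq_bot_aux (hp2 : p ≠ 2) (n : ℕ) : ∀ (G : Type u) [Group G] [Finite G]
    (H R : Subgroup G) [R.Normal], Nat.card G = n → Hyp p H → ¬ p ∣ Nat.card R → H ⊔ R = ⊤ →
    ∀ x ∈ Subgroup.normalClosure (H : Set G), x ∈ R → x ∈ NH H → x = 1 := by
  induction n using Nat.strong_induction_on with
  | _ n ih =>
  intro G _ _ H R _ hn hH hR hG x hxM hxR hxN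
  classical
  haveI := Fintype.ofFinite G
  have hmem : ∀ g : G, ∃ h ∈ H, ∃ r ∈ R, h * r = g := fun g =>
    Subgroup.mem_sup_of_normal_right.1
      (show g ∈ H ⊔ R by rw [hG]; exact Subgroup.mem_top g)
  -- proper subgroups containing `H`
  have hsub : ∀ K : Subgroup G, H ≤ K → K ≠ ⊤ → ∀ y : K,
      y ∈ Subgroup.normalClosure (H.subgroupOf K : Set K) → (y : G) ∈ R → (y : G) ∈ NH H →
        y = 1 := by
    intro K hK hne y hy hyR hyN
    have hlt : Nat.card K < n := hn ▸ lt_of_le_of_ne K.card_le_card_group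
      (fun h => hne (Subgroup.eq_top_of_card_eq K h))
    refine ih _ hlt K (H.subgroupOf K) (R.subgroupOf K) rfl (hH.subgroupOf hK) ?_ ?_ y hy hyR ?_
    · intro h
      refine hR (h.trans ?_)
      rw [← Subgroup.card_map_of_injective K.subtype_injective, Subgroup.subgroupOf_map_subtype]
      exact Subgroup.card_dvd_of_le inf_le_left
    · refine top_le_iff.1 fun z _ => ?_
      obtain ⟨h, hh, r, hr, e⟩ := hmem z
      have hrK : r ∈ K := by
        rw [show r = h⁻¹ * z by rw [← e]; group]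
        exact K.mul_mem (K.inv_mem (hK hh)) z.2
      exact Subgroup.mem_sup_of_normal_right.2 ⟨⟨h, hK hh⟩, hh, ⟨r, hrK⟩, hr, Subtype.ext e⟩
    · exact Subgroup.mem_normalizer_iff.2 fun w => Subgroup.mem_normalizer_iff.1 hyN (w : G)
  by_cases hncl : Subgroup.normalClosure (H : Set G) = ⊤
  swap
  · set M := Subgroup.normalClosure (H : Set G) with hM
    have hHM : H ≤ M := Subgroup.le_normalClosure
    set N' := (Subgroup.normalClosure (H.subgroupOf M : Set M)).map M.subtype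
    have hle : M ≤ N' := by
      rw [hM, Subgroup.normalClosure, Subgroup.closure_le]
      intro y hy
      obtain ⟨b, hb, hby⟩ := Group.mem_conjugatesOfSet_iff.1 hy
      obtain ⟨g, rfl⟩ := isConj_iff.1 hby
      obtain ⟨h', hh', r, hr, rfl⟩ := hmem g
      obtain ⟨d, hd, hc⟩ := exists_decomp hH hR (R.inv_mem hr)
      -- `r` acts on `b` as `d` does
      have hrb : r * b * r⁻¹ = d * b * d⁻¹ := by
        have h1 := comm_of_mem hH hR hc.1 hc.2 hb
        calc r * b * r⁻¹ = r * (b * (r⁻¹ * d)) * d⁻¹ := by group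
          _ = r * ((r⁻¹ * d) * b) * d⁻¹ := by rw [h1]
          _ = _ := by group
      have hmemN : (⟨b, hHM hb⟩ : M) ∈ Subgroup.normalClosure (H.subgroupOf M : Set M) :=
        Subgroup.le_normalClosure hb
      refine ⟨⟨h', hHM hh'⟩ * ⟨d, hd.1⟩ * ⟨b, hHM hb⟩ * (⟨h', hHM hh'⟩ * ⟨d, hd.1⟩)⁻¹,
        Subgroup.normalClosure_normal.conj_mem _ hmemN _, ?_⟩
      show h' * d * b * (h' * d)⁻¹ = h' * r * b * (h' * r)⁻¹
      calc h' * d * b * (h' * d)⁻¹ = h' * (d * b * d⁻¹) * h'⁻¹ := by group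
        _ = h' * (r * b * r⁻¹) * h'⁻¹ := by rw [hrb]
        _ = _ := by group
    obtain ⟨y, hy, rfl⟩ := hle hxM
    exact congrArg Subtype.val (hsub M hHM hncl y hy hxR hxN)
  by_contra hx1
  -- an element of order `p`
  have hHne : H ≠ ⊥ := by
    rintro rfl
    exact hx1 (Subgroup.mem_bot.1 ((Subgroup.normalClosure_le_normal (N := ⊥) (fun y hy => hy)) hxM))
  obtain ⟨a, haH, hao⟩ : ∃ a ∈ H, orderOf a = p := by
    obtain ⟨k, hk⟩ := IsPGroup.iff_card.1 hH.pg
    have hk0 : k ≠ 0 := fun h => hHne (Subgroup.eq_bot_of_card_eq H (by rw [hk, h, pow_zero]))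
    obtain ⟨b, hb⟩ := exists_prime_orderOf_dvd_card' (G := H) p (hk ▸ dvd_pow_self p hk0)
    exact ⟨b, b.2, by rw [Subgroup.orderOf_coe, hb]⟩
  have hap : a ^ p = 1 := hao ▸ pow_orderOf_eq_one a
  have ha1 : a ≠ 1 := fun h => hp.out.ne_one (by rw [← hao, h, orderOf_one])
  by_cases haZ : a ∈ Subgroup.center G
  · set Z := Subgroup.zpowers a
    have hZc : Z ≤ Subgroup.center G := Subgroup.zpowers_le.2 haZ
    haveI : Z.Normal := ⟨fun y hy g => by
      rw [Subgroup.mem_center_iff.1 (hZc hy) g, mul_inv_cancel_right]; exact hy⟩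
    set f := QuotientGroup.mk' Z
    have hlt : Nat.card (G ⧸ Z) < n := by
      rw [← hn, Z.card_eq_card_quotient_mul_card_subgroup]
      exact lt_mul_right Nat.card_pos (by rw [Nat.card_zpowers, hao]; exact hp.out.one_lt)
    have hfs : Function.Surjective f := QuotientGroup.mk'_surjective Z
    haveI : (R.map f).Normal := (inferInstance : R.Normal).map f hfs
    have h1 := ih _ hlt (G ⧸ Z) (H.map f) (R.map f) rfl (hH.quotient_central Z hZc)
      (fun h => hR (h.trans (Subgroup.card_map_dvd _ _))) (by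
        rw [← Subgroup.map_sup, hG, Subgroup.map_top_of_surjective f hfs])
      (f x) (by
        rw [Subgroup.coe_map, ← Subgroup.map_normalClosure _ f hfs, hncl,
          Subgroup.map_top_of_surjective f hfs]
        exact Subgroup.mem_top _)
      (Subgroup.mem_map_of_mem f hxR) (by
        refine mem_NH_of_comm ?_
        rintro _ ⟨h, hh, rfl⟩
        rw [← map_mul, ← map_mul, comm_of_mem hH hR hxR hxN hh])
    have hxZ : x ∈ Z := (QuotientGroup.eq_one_iff x).1 h1
    exact hx1 (eq_one_of_mem_inf hH hR ((Subgroup.zpowers_le.2 haH) hxZ) hxR)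
  -- the subgroup generated by commutators with `a`
  set gens : Set G := {y | ∃ r ∈ R, r * a * r⁻¹ * a⁻¹ = y}
  set D := Subgroup.normalClosure gens
  have hDR : D ≤ R := Subgroup.normalClosure_le_normal fun y ⟨r, hr, e⟩ => by
    rw [← e, show r * a * r⁻¹ * a⁻¹ = r * (a * r⁻¹ * a⁻¹) by group]
    exact R.mul_mem hr (Subgroup.Normal.conj_mem inferInstance _ (R.inv_mem hr) a)
  have hDne : D ≠ ⊥ := by
    intro hD
    refine haZ (Subgroup.mem_center_iff.2 fun g => ?_)
    obtain ⟨h, hh, r, hr, rfl⟩ := hmem g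
    have h1 : r * a * r⁻¹ * a⁻¹ ∈ D := Subgroup.subset_normalClosure ⟨r, hr, rfl⟩
    rw [hD, Subgroup.mem_bot, mul_inv_eq_one, mul_inv_eq_iff_eq_mul] at h1
    rw [mul_assoc, h1, ← mul_assoc, hH.comm h hh a haH, mul_assoc]
  have hxD : x ∈ D := by
    set f := QuotientGroup.mk' D
    have hfs : Function.Surjective f := QuotientGroup.mk'_surjective D
    haveI : (R.map f).Normal := (inferInstance : R.Normal).map f hfs
    have hlt : Nat.card (G ⧸ D) < n := by
      rw [← hn, D.card_eq_card_quotient_mul_card_subgroup]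
      exact lt_mul_right Nat.card_pos (by
        rw [Finite.one_lt_card_iff_nontrivial]; exact (Subgroup.nontrivial_iff_ne_bot D).2 hDne)
    have h1 := ih _ hlt (G ⧸ D) (H.map f) (R.map f) rfl
      (hH.quotient_coprime D fun h => hR (h.trans (Subgroup.card_dvd_of_le hDR)))
      (fun h => hR (h.trans (Subgroup.card_map_dvd _ _))) (by
        rw [← Subgroup.map_sup, hG, Subgroup.map_top_of_surjective f hfs])
      (f x) (by
        rw [Subgroup.coe_map, ← Subgroup.map_normalClosure _ f hfs, hncl,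
          Subgroup.map_top_of_surjective f hfs]
        exact Subgroup.mem_top _)
      (Subgroup.mem_map_of_mem f hxR) (by
        refine mem_NH_of_comm ?_
        rintro _ ⟨h, hh, rfl⟩
        rw [← map_mul, ← map_mul, comm_of_mem hH hR hxR hxN hh])
    exact (QuotientGroup.eq_one_iff x).1 h1
  -- the centralizer of `a`
  set K := Subgroup.centralizer ({a} : Set G) with hK
  have hHK : H ≤ K := fun h hh => Subgroup.mem_centralizer_singleton_iff.2 (hH.comm h hh a haH)
  have hKne : K ≠ ⊤ := fun h => haZ (Subgroup.mem_center_iff.2 fun g =>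
    Subgroup.mem_centralizer_singleton_iff.1 (h ▸ Subgroup.mem_top g : g ∈ K))
  set H' := H.subgroupOf K
  set NC := Subgroup.normalClosure (H' : Set K)
  haveI hNCn : NC.Normal := Subgroup.normalClosure_normal
  set C : Subgroup K := (R ⊓ NH H).subgroupOf K with hC
  have hH' : Hyp p H' := hH.subgroupOf hHK
  haveI hR'n : (R.subgroupOf K).Normal := inferInstance
  have hR' : ¬ p ∣ Nat.card (R.subgroupOf K) := fun h => hR (h.trans (by
    rw [← Subgroup.card_map_of_injective K.subtype_injective, Subgroup.subgroupOf_map_subtype]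
    exact Subgroup.card_dvd_of_le inf_le_left))
  set e : C →* K ⧸ NC := (QuotientGroup.mk' NC).comp C.subtype with he
  have hebij : Function.Bijective e := by
    constructor
    · rw [injective_iff_map_eq_one]
      intro c hc
      have h1 : (c : K) ∈ NC := (QuotientGroup.eq_one_iff _).1 hc
      exact Subtype.ext (hsub K hHK hKne c h1 c.2.1 c.2.2)
    · intro y
      obtain ⟨k, rfl⟩ := QuotientGroup.mk'_surjective NC y
      obtain ⟨h, hh, r, hr, ek⟩ := hmem k
      have hrK : r ∈ K := by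
        rw [show r = h⁻¹ * k by rw [← ek]; group]
        exact K.mul_mem (K.inv_mem (hHK hh)) k.2
      obtain ⟨d, hd, hc⟩ := exists_decomp hH' hR' (R := R.subgroupOf K) (r := ⟨r, hrK⟩) hr
      have hcC : (⟨r, hrK⟩ : K) * d ∈ C := by
        refine ⟨hc.1, mem_NH_of_comm fun y hy => ?_⟩
        exact (congrArg Subtype.val (comm_of_mem hH' hR' hc.1 hc.2
          (show (⟨y, hHK hy⟩ : K) ∈ H' from hy))).symm
      refine ⟨⟨_, hcC⟩, ?_⟩
      show QuotientGroup.mk' NC (⟨r, hrK⟩ * d) = QuotientGroup.mk' NC k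
      have hk' : k = (⟨h, hHK hh⟩ : K) * ⟨r, hrK⟩ := Subtype.ext ek.symm
      rw [hk', map_mul, map_mul, show QuotientGroup.mk' NC d = 1 from
          (QuotientGroup.eq_one_iff _).2 hd.1,
        show QuotientGroup.mk' NC (⟨h, hHK hh⟩ : K) = 1 from
          (QuotientGroup.eq_one_iff _).2 (Subgroup.le_normalClosure hh), mul_one, one_mul]
  set π : K →* C := (MulEquiv.ofBijective e hebij).symm.toMonoidHom.comp (QuotientGroup.mk' NC)
    with hπ
  have hπC : ∀ c : C, π (c : K) = c := fun c => (MulEquiv.ofBijective e hebij).symm_apply_apply c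
  have hπNC : ∀ k ∈ NC, π k = 1 := fun k hk => by
    rw [hπ, MonoidHom.comp_apply, show QuotientGroup.mk' NC k = 1 from
      (QuotientGroup.eq_one_iff _).2 hk, map_one]
  -- the group generated by `a` and `R`
  set Γ := Subgroup.zpowers a ⊔ R with hΓ
  have haΓ : a ∈ Γ := Subgroup.mem_sup_left (Subgroup.mem_zpowers a)
  have hRΓ : R ≤ Γ := le_sup_right
  set a' : Γ := ⟨a, haΓ⟩
  set R' := R.subgroupOf Γ with hR'def
  have hR'c : ¬ p ∣ Nat.card R' := fun h => hR (h.trans (by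
    rw [← Subgroup.card_map_of_injective Γ.subtype_injective, Subgroup.subgroupOf_map_subtype]
    exact Subgroup.card_dvd_of_le inf_le_left))
  have ha'p : a' ^ p = 1 := Subtype.ext hap
  have hΓdec : ∀ g : Γ, ∃ i : ℕ, ∃ r ∈ R', g = a' ^ i * r := by
    intro g
    obtain ⟨b, hb, r, hr, e'⟩ := Subgroup.mem_sup_of_normal_right.1 g.2
    obtain ⟨i, rfl⟩ := (mem_powers_iff_mem_zpowers (x := a)).2 hb
    exact ⟨i, ⟨r, hRΓ hr⟩, hr, Subtype.ext e'.symm⟩
  -- a linear character
  obtain ⟨ν, hν⟩ : ∃ ν : H →* ℂˣ, ν ⟨a, haH⟩ ≠ 1 := by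
    haveI : IsMulCommutative H := ⟨⟨fun u v => Subtype.ext (hH.comm u u.2 v v.2)⟩⟩
    exact H27.exists_linear_ne_one fun h => ha1 (congrArg Subtype.val h)
  set eH : H →* G ⧸ R := (QuotientGroup.mk' R).comp H.subtype
  have hHbij : Function.Bijective eH := by
    constructor
    · rw [injective_iff_map_eq_one]
      intro h hh
      exact Subtype.ext (eq_one_of_mem_inf hH hR h.2 ((QuotientGroup.eq_one_iff _).1 hh))
    · intro y
      obtain ⟨g, rfl⟩ := QuotientGroup.mk'_surjective R y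
      obtain ⟨h, hh, r, hr, rfl⟩ := hmem g
      refine ⟨⟨h, hh⟩, ?_⟩
      show QuotientGroup.mk' R h = QuotientGroup.mk' R (h * r)
      rw [map_mul, show QuotientGroup.mk' R r = 1 from (QuotientGroup.eq_one_iff r).2 hr, mul_one]
  set μ : Γ →* ℂˣ := (ν.comp ((MulEquiv.ofBijective eH hHbij).symm.toMonoidHom.comp
    (QuotientGroup.mk' R))).comp Γ.subtype with hμ
  have hμR : ∀ r ∈ R', μ r = 1 := fun r hr => by
    simp only [hμ, MonoidHom.comp_apply, Subgroup.coe_subtype,
      show QuotientGroup.mk' R (r : G) = 1 from (QuotientGroup.eq_one_iff _).2 hr, map_one]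
  have hμa : μ a' ≠ 1 := by
    have : (MulEquiv.ofBijective eH hHbij).symm (QuotientGroup.mk' R a) = ⟨a, haH⟩ :=
      (MulEquiv.ofBijective eH hHbij).symm_apply_apply ⟨a, haH⟩
    intro h
    apply hν
    rw [← this]
    exact h
  haveI := Fintype.ofFinite Γ
  haveI := Fintype.ofFinite (Subgroup.centralizer ({a'} : Set Γ))
  set L := Subgroup.centralizer ({a'} : Set Γ) with hL
  have hjK : ∀ l : L, ((l : Γ) : G) ∈ K := fun l => Subgroup.mem_centralizer_singleton_iff.2
    (congrArg Subtype.val (Subgroup.mem_centralizer_singleton_iff.1 l.2))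
  let j : L →* K :=
    { toFun := fun l => ⟨_, hjK l⟩
      map_one' := rfl
      map_mul' := fun _ _ => rfl }
  have hjs : Function.Surjective (π.comp j) := by
    intro c
    refine ⟨⟨⟨((c : K) : G), hRΓ c.2.1⟩, Subgroup.mem_centralizer_singleton_iff.2
      (Subtype.ext (Subgroup.mem_centralizer_singleton_iff.1 (c : K).2))⟩, ?_⟩
    exact (congrArg π (Subtype.ext rfl)).trans (hπC c)
  -- the fixed element
  set xC : C := ⟨⟨x, Subgroup.mem_centralizer_singleton_iff.2
    (comm_of_mem hH hR hxR hxN haH)⟩, hxR, hxN⟩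
  refine hx1 (congrArg (fun c : C => ((c : K) : G)) (?_ : xC = 1))
  haveI := Fintype.ofFinite C
  refine isConj_one_left.1 ((H26.isConj_iff_forall_irr xC 1).2 fun ξ => ?_)
  obtain ⟨m, ρ, hρ, eρ⟩ := ξ.2
  let ζ : IrrCharacter L := ⟨fun l => ξ.1 (π (j l)),
    m, ρ.comp (π.comp j), H43.isIrreducible_comp_surjective ρ _ hjs, by
      funext l
      show ρ.character (π (j l)) = ξ.1 (π (j l))
      rw [eρ]⟩
  have hζa : ∀ l : L, ((l : Γ) : G) ∈ H → ζ.1 l = ξ.1 1 := fun l hl => by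
    show ξ.1 (π (j l)) = ξ.1 1
    rw [hπNC (j l) (Subgroup.le_normalClosure hl)]
  obtain ⟨χ, ε, hε, hval⟩ := exists_twisted_extension (p := p) a' R' hR'c ha'p hΓdec μ hμR hμa hp2 ζ
    (fun l hl => (hζa l (by rw [hl]; exact haH)).trans (hζa 1 (one_mem H)).symm)
  have hμa2 : μ (a' * a') ≠ 1 := by
    intro h
    have h1 : μ a' ^ 2 = 1 := by rw [pow_two, ← map_mul]; exact h
    have h2 : μ a' ^ p = 1 := by rw [← map_pow, ha'p, map_one]
    rw [← orderOf_eq_prime h2 hμa] at h2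
    have h3 := orderOf_dvd_of_pow_eq_one h1
    rw [orderOf_eq_prime (by rw [← map_pow, ha'p, map_one]) hμa] at h3
    exact hp2 ((Nat.prime_dvd_prime_iff_eq hp.out Nat.prime_two).1 h3)
  have ha'L : a' ∈ L := Subgroup.mem_centralizer_singleton_iff.2 rfl
  have hva : χ.1 a' = ε * ξ.1 1 := (hval ⟨a', ha'L⟩ hμa).trans (by rw [hζa ⟨a', ha'L⟩ haH])
  -- the values on `a g a g⁻¹`
  have hvals : ∀ g : Γ, χ.1 (g * a' * g⁻¹ * a') = ε * ξ.1 1 := by
    intro g
    obtain ⟨Q, hQ, v, hv, ev⟩ := hH.prod_decomp (g : G) haH haH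
    have hQR : Q ≤ R := hQ.le_of_sup_eq_top hH hG
    have hcol : col H (g : G) a = a := by
      obtain ⟨ho, -⟩ := hH.col_spec (g : G) haH
      obtain ⟨i, r, hr, eg⟩ := hΓdec g
      have hgG : (g : G) = a ^ i * (r : G) := congrArg Subtype.val eg
      have h1 : a⁻¹ * col H (g : G) a ∈ R := by
        have h3 : a⁻¹ * ((g : G) * a * (g : G)⁻¹) ∈ R := by
          rw [hgG, show a⁻¹ * (a ^ i * (r : G) * a * (a ^ i * (r : G))⁻¹) =
            (a⁻¹ * a ^ i) * (r : G) * (a * (r : G)⁻¹ * a⁻¹) * (a * (a ^ i)⁻¹) by group]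
          rw [show a * (a ^ i)⁻¹ = (a⁻¹ * a ^ i)⁻¹ by
            rw [mul_inv_rev, inv_inv]; exact ((Commute.refl a).pow_right i).inv_right.eq]
          have := Subgroup.Normal.conj_mem (inferInstance : R.Normal) _
            (R.mul_mem (show (r : G) ∈ R from hr)
              (Subgroup.Normal.conj_mem inferInstance _ (R.inv_mem hr) a)) (a⁻¹ * a ^ i)
          convert this using 1
          simp only [Subgroup.coe_subtype]
          group
        have e2 : a⁻¹ * col H (g : G) a = a⁻¹ * ((g : G) * a * (g : G)⁻¹) * (a * v⁻¹ * a⁻¹) := by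
          calc a⁻¹ * col H (g : G) a = a⁻¹ * (col H (g : G) a * a * v) * v⁻¹ * a⁻¹ := by group
            _ = a⁻¹ * ((g : G) * a * (g : G)⁻¹ * a) * v⁻¹ * a⁻¹ := by rw [← ev]
            _ = _ := by group
        rw [e2]
        exact R.mul_mem h3 (Subgroup.Normal.conj_mem inferInstance _ (R.inv_mem (hQR hv)) a)
      exact (inv_mul_eq_one.1 (eq_one_of_mem_inf hH hR (H.mul_mem (H.inv_mem haH) ho) h1)).symm
    rw [hcol] at ev
    obtain ⟨r, hr, v', hv', hcomm, e'⟩ := hQ.conj_section hH (H.mul_mem haH haH) hv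
    rw [e'] at ev
    have hrΓ : r ∈ Γ := hRΓ (hQR hr)
    -- `v'` centralizes `a`
    have hcomma : Commute a v' := by
      have hpd : ∃ i : ℕ, (a * a) ^ i = a := by
        obtain ⟨t, ht⟩ := hp.out.odd_of_ne_two hp2
        refine ⟨t + 1, ?_⟩
        rw [← pow_two, ← pow_mul, show 2 * (t + 1) = p + 1 by omega, pow_succ, hap, one_mul]
      obtain ⟨i, hi⟩ := hpd
      exact hi ▸ hcomm.pow_left i
    let v'K : K := ⟨v', Subgroup.mem_centralizer_singleton_iff.2 hcomma.eq.symm⟩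
    have hv'NC : v'K ∈ NC := by
      -- a fixed point in the coset of `W ⊓ NC`
      set W := Q.subgroupOf K
      have hWc : ¬ p ∣ Nat.card (W ⊓ NC : Subgroup K) := fun h => hQ.coprime (h.trans ((
        Subgroup.card_dvd_of_le inf_le_left).trans (by
          rw [← Subgroup.card_map_of_injective K.subtype_injective, Subgroup.subgroupOf_map_subtype]
          exact Subgroup.card_dvd_of_le inf_le_left)))
      have hWn : H' ≤ NH W := fun k hk => Subgroup.mem_normalizer_iff.2 fun y =>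
        Subgroup.mem_normalizer_iff.1 (hQ.H_le_NH hk) (y : G)
      have hnD : H' ≤ NH (W ⊓ NC) := fun k hk => Subgroup.mem_normalizer_iff.2 fun y =>
        and_congr (Subgroup.mem_normalizer_iff.1 (hWn hk) y)
          ⟨fun hy => hNCn.conj_mem y hy k, fun hy => by
            simpa [mul_assoc] using hNCn.conj_mem _ hy k⁻¹⟩
      have hkey : ∀ k ∈ H', v'K⁻¹ * (k * v'K * k⁻¹) ∈ W ⊓ NC := by
        intro k hk
        refine ⟨W.mul_mem (W.inv_mem hv') ((Subgroup.mem_normalizer_iff.1 (hWn hk) v'K).1 hv'), ?_⟩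
        rw [show v'K⁻¹ * (k * v'K * k⁻¹) = (v'K⁻¹ * k * (v'K⁻¹)⁻¹) * k⁻¹ by group]
        exact NC.mul_mem (hNCn.conj_mem k (Subgroup.le_normalClosure hk) v'K⁻¹)
          (NC.inv_mem (Subgroup.le_normalClosure hk))
      obtain ⟨d, hd, hfix⟩ := exists_fixed hH'.pg hnD hWc hkey
      have h1 : ((v'K * d : K) : G) = 1 := hQ.disj _ (Q.mul_mem hv' hd.1)
        (mem_NH_of_comm fun y hy =>
          congrArg Subtype.val (hfix ⟨y, hHK hy⟩ hy))
      rw [eq_inv_of_mul_eq_one_left (Subtype.ext h1 : v'K * d = 1)]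
      exact NC.inv_mem hd.2
    -- the element of the centralizer in `Γ`
    let l : L := ⟨⟨a * a * v', Γ.mul_mem (Γ.mul_mem haΓ haΓ) (hRΓ (hQR hv'))⟩,
      Subgroup.mem_centralizer_singleton_iff.2 (Subtype.ext
        (((Commute.refl a).mul_right (Commute.refl a)).mul_right hcomma).eq.symm)⟩
    have hl : χ.1 (l : Γ) = ε * ξ.1 1 := by
      have hμl : μ (l : Γ) = μ (a' * a') := by
        rw [show (l : Γ) = a' * a' * ⟨v', hRΓ (hQR hv')⟩ from rfl, map_mul,
          hμR ⟨v', hRΓ (hQR hv')⟩ (hQR hv'), mul_one]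
      rw [hval l (hμl ▸ hμa2)]
      show ε * ξ.1 (π (j l)) = _
      rw [show j l = ⟨a * a, hHK (H.mul_mem haH haH)⟩ * v'K from rfl, map_mul,
        hπNC _ (Subgroup.le_normalClosure (show (⟨a * a, hHK (H.mul_mem haH haH)⟩ : K) ∈ H' from
          H.mul_mem haH haH)), hπNC _ hv'NC, mul_one]
    rw [← hl, show g * a' * g⁻¹ * a' = (⟨r, hrΓ⟩ : Γ) * (l : Γ) * (⟨r, hrΓ⟩ : Γ)⁻¹ from
      Subtype.ext ev, H26.irr_conj]
  have hsum := sum_conj_mul χ a' a'
  rw [Finset.sum_congr rfl fun g _ => hvals g, Finset.sum_const, Finset.card_univ, nsmul_eq_mul,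
    ← Nat.card_eq_fintype_card, hva] at hsum
  have hd0 := H26.irr_one_ne_zero χ
  have hξ0 := H26.irr_one_ne_zero ξ
  have hε0 : ε ≠ 0 := by rcases hε with rfl | rfl <;> norm_num
  field_simp at hsum
  have hΓc : (Nat.card Γ : ℂ) ≠ 0 := Nat.cast_ne_zero.2 Nat.card_pos.ne'
  have hde : χ.1 1 = ε * ξ.1 1 := by
    exact hsum
  rcases hε with rfl | rfl
  swap
  · exfalso
    rw [H43.irr_charDegree_spec, H43.irr_charDegree_spec, neg_one_mul, ← add_eq_zero_iff_eq_neg,
      ← Nat.cast_add, Nat.cast_eq_zero] at hde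
    have := H43.irr_charDegree_pos χ
    omega
  rw [one_mul] at hva hde
  have hka : a' ∈ H43.charKer χ := H43.mem_charKer.2 (hva.trans hde.symm)
  -- generators of the commutator subgroup lie in the kernel
  have hgen : ∀ r ∈ R, r * a * r⁻¹ * a⁻¹ ∈ (H43.charKer χ).map Γ.subtype := by
    intro r hr
    exact ⟨⟨r, hRΓ hr⟩ * a' * ⟨r, hRΓ hr⟩⁻¹ * a'⁻¹, (H43.charKer χ).mul_mem
      (Subgroup.Normal.conj_mem inferInstance _ hka _) ((H43.charKer χ).inv_mem hka), rfl⟩
  have hDker : D ≤ (H43.charKer χ).map Γ.subtype := by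
    rw [show D = Subgroup.normalClosure gens from rfl, Subgroup.normalClosure, Subgroup.closure_le]
    intro y hy
    obtain ⟨b, ⟨r, hr, rfl⟩, hby⟩ := Group.mem_conjugatesOfSet_iff.1 hy
    obtain ⟨g, rfl⟩ := isConj_iff.1 hby
    obtain ⟨h, hh, s, hs, rfl⟩ := hmem g
    have hha : h * a * h⁻¹ = a := by rw [hH.comm h hh a haH, mul_inv_cancel_right]
    have e1 : ∀ t : G, h * (t * a * t⁻¹ * a⁻¹) * h⁻¹ =
        (h * t * h⁻¹) * a * (h * t * h⁻¹)⁻¹ * a⁻¹ := by
      intro t
      conv_rhs => rw [← hha]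
      group
    have e2 : h * s * (r * a * r⁻¹ * a⁻¹) * (h * s)⁻¹ =
        h * ((s * r) * a * (s * r)⁻¹ * a⁻¹) * h⁻¹ *
          (h * (s * a * s⁻¹ * a⁻¹) * h⁻¹)⁻¹ := by group
    rw [e2, e1, e1]
    exact Subgroup.mul_mem _ (hgen _ (Subgroup.Normal.conj_mem inferInstance _ (R.mul_mem hs hr) h))
      (Subgroup.inv_mem _ (hgen _ (Subgroup.Normal.conj_mem inferInstance _ hs h)))
  obtain ⟨y, hy, hyx⟩ := hDker hxD
  have hxΓ : y = (⟨x, hRΓ hxR⟩ : Γ) := Subtype.ext hyx
  rw [hxΓ] at hy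
  let l : L := ⟨⟨a * x, Γ.mul_mem haΓ (hRΓ hxR)⟩, Subgroup.mem_centralizer_singleton_iff.2
    (Subtype.ext ((Commute.refl a).mul_right (comm_of_mem hH hR hxR hxN haH).symm).eq.symm)⟩
  have hl1 : μ (l : Γ) ≠ 1 := by
    rw [show (l : Γ) = a' * ⟨x, hRΓ hxR⟩ from rfl, map_mul, hμR ⟨x, hRΓ hxR⟩ hxR, mul_one]
    exact hμa
  have h1 := hval l hl1
  rw [one_mul, show (l : Γ) = a' * ⟨x, hRΓ hxR⟩ from rfl, H43.irr_mul_charKer χ a' hy, hva] at h1
  rw [h1]
  show ξ.1 xC = ξ.1 (π (j l))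
  rw [show j l = ⟨a, hHK haH⟩ * (xC : K) from rfl, map_mul,
    hπNC _ (Subgroup.le_normalClosure (show (⟨a, hHK haH⟩ : K) ∈ H' from haH)), one_mul, hπC]

/-- No fixed points of an extremely closed subgroup in the `p'`-part of its normal closure. -/
theorem fixed_eq_bot (hp2 : p ≠ 2) {G : Type u} [Group G] [Finite G] {H R : Subgroup G}
    [R.Normal] (hH : Hyp p H) (hR : ¬ p ∣ Nat.card R) (hG : H ⊔ R = ⊤) :
    ∀ x ∈ Subgroup.normalClosure (H : Set G), x ∈ R → x ∈ NH H → x = 1 :=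
  fixed_eq_bot_aux hp2 _ G H R rfl hH hR hG

end Cfsg.Agent.H92.EC
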