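import Cfsg.Agent.H92.EC.Orbits
import Cfsg.Agent.H92.EC.Block
import Cfsg.Agent.H43.ClassPairSingular

/-!
# An extremely closed abelian subgroup of odd prime power order is normal modulo the `p'`-core
-/

set_option autoImplicit false
set_option linter.unusedSectionVars false

open scoped ComplexConjugate commutatorElement

namespace Cfsg.Agent.H92.EC

open Cfsg

variable {G : Type*} [Group G] [Finite G] {p : ℕ} [hp : Fact p.Prime] {H : Subgroup G}

/-- The situation of a minimal counterexample. -/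
structure Crit (p : ℕ) (H : Subgroup G) : Prop where
  hyp : Hyp p H
  core : Cfsg.pPrimeCore p G = ⊥
  ncl : Subgroup.normalClosure (H : Set G) = ⊤
  center : Subgroup.center G = ⊥
  sup_eq : ∀ K : Subgroup G, K.Normal → K ≠ ⊥ → H ⊔ K = ⊤
  notNormal : ¬ H.Normal
  local_core : ∀ c ∈ H, c ≠ 1 → ∀ g Q, Kernel p H g Q →
    ∀ v : Subgroup.centralizer ({c} : Set G), (v : G) ∈ Q →
      v ∈ Cfsg.pPrimeCore p (Subgroup.centralizer ({c} : Set G))

namespace Crit

variable (hc : Crit p H)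

include hc

theorem le_center_of_normal {D : Subgroup G} [D.Normal]
    (hcomm : ∀ h ∈ H, ∀ d ∈ D, h * d = d * h) : D ≤ Subgroup.center G := by
  have h1 : Subgroup.normalClosure (H : Set G) ≤ Subgroup.centralizer (D : Set G) :=
    Subgroup.normalClosure_le_normal fun h hh =>
      Subgroup.mem_centralizer_iff.2 fun d hd => (hcomm h hh d hd).symm
  rw [hc.ncl] at h1
  intro d hd
  exact Subgroup.mem_center_iff.2 fun g =>
    (Subgroup.mem_centralizer_iff.1 (h1 (Subgroup.mem_top g)) d hd).symm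

theorem exists_conj_notMem {a : G} (ha : a ∈ H) (ha1 : a ≠ 1) :
    ∃ g : G, g * a * g⁻¹ ∉ H := by
  by_contra! h
  have hle : Subgroup.normalClosure ({a} : Set G) ≤ H := by
    rw [Subgroup.normalClosure, Subgroup.closure_le]
    intro x hx
    obtain ⟨b, hb, hbx⟩ := Group.mem_conjugatesOfSet_iff.1 hx
    obtain ⟨g, rfl⟩ := isConj_iff.1 hbx
    rw [Set.mem_singleton_iff] at hb
    subst hb
    exact h g
  have h1 := hc.le_center_of_normal (D := Subgroup.normalClosure ({a} : Set G))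
    (fun x hx d hd => hc.hyp.comm x hx d (hle hd))
  rw [hc.center, le_bot_iff] at h1
  exact ha1 ((Subgroup.mem_bot).1 (h1 ▸ Subgroup.subset_normalClosure rfl))

theorem ne_bot : H ≠ ⊥ := by
  rintro rfl
  exact hc.notNormal inferInstance

theorem commutator_ne_bot : commutator G ≠ ⊥ := by
  intro h
  refine hc.notNormal ⟨fun n hn g => ?_⟩
  have h1 : g * n * g⁻¹ * n⁻¹ ∈ commutator G :=
    Subgroup.commutator_mem_commutator (Subgroup.mem_top g) (Subgroup.mem_top n)
  rw [h, Subgroup.mem_bot, mul_inv_eq_one] at h1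
  rwa [h1]

theorem commutator_le {K : Subgroup G} [K.Normal] (hK : K ≠ ⊥) : commutator G ≤ K := by
  have hmem : ∀ x : G, ∃ h ∈ H, ∃ k ∈ K, h * k = x := fun x =>
    Subgroup.mem_sup_of_normal_right.1
      (show x ∈ H ⊔ K by rw [hc.sup_eq K inferInstance hK]; exact Subgroup.mem_top x)
  rw [commutator_def, Subgroup.commutator_le]
  intro x _ y _
  obtain ⟨a, ha, k, hk, rfl⟩ := hmem x
  obtain ⟨b, hb, l, hl, rfl⟩ := hmem y
  rw [← QuotientGroup.eq_one_iff, show ⁅a * k, b * l⁆ = a * k * (b * l) * (a * k)⁻¹ * (b * l)⁻¹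
    from commutatorElement_def _ _]
  have hk1 : (k : G ⧸ K) = 1 := (QuotientGroup.eq_one_iff k).2 hk
  have hl1 : (l : G ⧸ K) = 1 := (QuotientGroup.eq_one_iff l).2 hl
  simp only [QuotientGroup.mk_mul, QuotientGroup.mk_inv, hk1, hl1, mul_one]
  rw [← QuotientGroup.mk_mul, hc.hyp.comm a ha b hb, QuotientGroup.mk_mul]
  group

end Crit

theorem irr_one_eq_one_of_commutator_le [Fintype G] {χ : IrrCharacter G}
    (h : commutator G ≤ H43.charKer χ) : χ.1 1 = 1 := by
  classical
  obtain ⟨n, ρ, hρ, e⟩ := χ.2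
  have hd : χ.1 1 = (Module.finrank ℂ (Fin n → ℂ) : ℂ) := by rw [← e, ρ.char_one]
  have hcomm : ∀ g x : G, ρ g * ρ x = ρ x * ρ g := by
    intro g x
    have hm := h (Subgroup.commutator_mem_commutator (Subgroup.mem_top g) (Subgroup.mem_top x))
    rw [H43.mem_charKer, ← e, ρ.char_one, H25.char_eq_degree_iff] at hm
    calc ρ g * ρ x = ρ (⁅g, x⁆ * (x * g)) := by
          rw [← map_mul, commutatorElement_def]; congr 1; group
      _ = ρ x * ρ g := by rw [map_mul, hm, map_mul]; rfl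
  have hval : ∀ g, χ.1 g * conj (χ.1 g) = χ.1 1 * χ.1 1 := by
    intro g
    have hs := H25.eq_smul_id_of_comm ρ (ρ g) (fun x => hcomm g x)
    have ht : χ.1 (g * g⁻¹) = χ.1 g / χ.1 1 * χ.1 g⁻¹ := by
      rw [← e]
      show LinearMap.trace ℂ _ (ρ (g * g⁻¹)) = _
      conv_lhs => rw [map_mul, hs]
      rw [smul_mul_assoc, map_smul, smul_eq_mul, ρ.char_one]
      rfl
    rw [mul_inv_cancel, H26.irr_inv] at ht
    have h0 := H26.irr_one_ne_zero χ
    field_simp at ht
    linear_combination -ht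
  have hn := H43.sum_mul_conj χ χ
  rw [if_pos rfl, Finset.sum_congr rfl fun g _ => hval g, Finset.sum_const, Finset.card_univ,
    nsmul_eq_mul, ← Nat.card_eq_fintype_card, H43.irr_charDegree_spec] at hn
  have hG : (Nat.card G : ℂ) ≠ 0 := Nat.cast_ne_zero.2 Nat.card_pos.ne'
  have h2 : ((Cfsg.charDegree χ.1 * Cfsg.charDegree χ.1 : ℕ) : ℂ) = ((1 : ℕ) : ℂ) := by
    push_cast
    exact mul_left_cancel₀ hG (by rw [hn, mul_one])
  rw [H43.irr_charDegree_spec, Nat.eq_one_of_mul_eq_one_right (Nat.cast_inj.1 h2), Nat.cast_one]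

theorem Crit.faithful [Fintype G] (hc : Crit p H) {χ : IrrCharacter G} (h1 : χ.1 1 ≠ 1) :
    ∀ g, χ.1 g = χ.1 1 → g = 1 := by
  intro g hg
  have hk : H43.charKer χ = ⊥ := by
    by_contra hne
    exact h1 (irr_one_eq_one_of_commutator_le (hc.commutator_le hne))
  exact (Subgroup.mem_bot).1 (hk ▸ H43.mem_charKer.2 hg)

theorem Crit.sect [Fintype G] (hc : Crit p H) {M : Ideal AlgInt} (hM : IsPModular p M)
    {χ : IrrCharacter G} (hχ : χ ∈ B0 M G) : Sect p H χ := by
  intro g Q hQ c hcH hc1 v hv hcomm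
  obtain ⟨i, hi⟩ := IsPGroup.iff_orderOf.1 hc.hyp.pg ⟨c, hcH⟩
  rw [Subgroup.orderOf_mk] at hi
  exact principal_value hM (mem_B0.1 hχ) ⟨i, hi⟩
    (v := ⟨v, Subgroup.mem_centralizer_singleton_iff.2 hcomm.eq.symm⟩)
    (hc.local_core c hcH hc1 g Q hQ _ hv)

variable [Fintype G] [Fintype H]

/-- All orbits are real. -/
theorem Crit.inv_mem_orb (hc : Crit p H) {M : Ideal AlgInt} (hM : IsPModular p M) (a : H) :
    a⁻¹ ∈ orb a := by
  classical
  have hH := hc.hyp
  by_contra hna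
  have ha1 : a ≠ 1 := by rintro rfl; exact hna (by rw [inv_one]; exact self_mem_orb 1)
  have ha1' : (a : G) ≠ 1 := fun h => ha1 (Subtype.ext h)
  obtain ⟨i, hi⟩ := IsPGroup.iff_orderOf.1 hH.pg a
  rw [← Subgroup.orderOf_coe] at hi
  have hlin : ∀ χ ∈ B0 M G, χ.1 a ≠ 0 → χ.1 1 = 1 := by
    intro χ hχ hne
    by_contra h1
    exact hna (inv_mem_orb_of_ne_zero hH (hc.sect hM hχ)
      (eta_ne_zero hH (hc.faithful h1) (hc.exists_conj_notMem a.2 ha1')) hne)
  -- the commutator subgroup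
  set D := commutator G with hD
  set f := (QuotientGroup.mk' D).comp H.subtype with hf
  have hsurj : Function.Surjective f := by
    intro x
    obtain ⟨x, rfl⟩ := QuotientGroup.mk'_surjective D x
    obtain ⟨h, hh, k, hk, rfl⟩ := Subgroup.mem_sup_of_normal_right.1
      (show x ∈ H ⊔ D by rw [hc.sup_eq D inferInstance hc.commutator_ne_bot]; exact Subgroup.mem_top x)
    refine ⟨⟨h, hh⟩, ?_⟩
    show QuotientGroup.mk' D h = QuotientGroup.mk' D (h * k)
    rw [map_mul, show QuotientGroup.mk' D k = 1 from (QuotientGroup.eq_one_iff k).2 hk, mul_one]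
  have hidx : D.index ≤ Nat.card H := by
    rw [Subgroup.index_eq_card]
    exact Nat.card_le_card_of_surjective f hsurj
  set L := Finset.univ.filter fun χ : IrrCharacter G => χ.1 1 = 1 with hL
  have hLcard : L.card = D.index := by
    rw [hD, ← H26.card_linear_irr, Nat.card_eq_fintype_card, Fintype.card_subtype]
  have hval : ∑ χ ∈ B0 M G, χ.1 a * conj (χ.1 a) =
      ((((B0 M G).filter fun χ => χ.1 a ≠ 0).card : ℕ) : ℂ) := by
    rw [← Finset.sum_filter_of_ne (p := fun χ : IrrCharacter G => χ.1 a ≠ 0)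
      (fun χ _ h h0 => h (by rw [h0, zero_mul]))]
    rw [Finset.sum_congr rfl fun χ hχ => ?_, Finset.sum_const, nsmul_eq_mul, mul_one]
    obtain ⟨hm, hne⟩ := Finset.mem_filter.1 hχ
    have h1 := hlin χ hm hne
    obtain ⟨n, ρ, hρ, e⟩ := χ.2
    have hfin : Module.finrank ℂ (Fin n → ℂ) = 1 := by
      have : (Module.finrank ℂ (Fin n → ℂ) : ℂ) = 1 := by rw [← ρ.char_one, e, h1]
      exact_mod_cast this
    obtain ⟨μ, hμ, hs⟩ := H25.exists_char_eq_sum_roots ρ (a : G)
    rw [Complex.mul_conj, ← e, hs, Complex.normSq_eq_norm_sq]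
    have : ‖∑ i, μ i‖ = 1 := by
      haveI : Subsingleton (Fin (Module.finrank ℂ (Fin n → ℂ))) := by rw [hfin]; infer_instance
      rw [Fintype.sum_subsingleton _ (⟨0, by omega⟩ : Fin (Module.finrank ℂ (Fin n → ℂ)))]
      exact Complex.norm_eq_one_of_pow_eq_one (hμ _) (orderOf_pos _).ne'
    rw [this]; simp
  have hle : ((B0 M G).filter fun χ => χ.1 a ≠ 0).card ≤ D.index := by
    rw [← hLcard]
    refine Finset.card_le_card fun χ hχ => ?_
    obtain ⟨h1, h2⟩ := Finset.mem_filter.1 hχ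
    exact Finset.mem_filter.2 ⟨Finset.mem_univ _, hlin χ h1 h2⟩
  have hbound : ∀ U : Subgroup G, IsPGroup p U → U ≤ Subgroup.centralizer ({(a : G)} : Set G) →
      Nat.card U ≤ D.index := by
    intro U hU hUc
    obtain ⟨n, hn, e⟩ := exists_sum_B0_sq hM ⟨i, hi⟩ U hU hUc
    rw [hval, Nat.cast_inj] at e
    exact (Nat.le_mul_of_pos_right _ hn).trans (e ▸ hle)
  have hidx' : D.index = Nat.card H := le_antisymm hidx (hbound H hH.pg fun x hx =>
    Subgroup.mem_centralizer_singleton_iff.2 (hH.comm x hx a a.2))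
  have hinj : Function.Injective f :=
    ((Nat.bijective_iff_surjective_and_card f).2 ⟨hsurj, by rw [← Subgroup.index_eq_card, hidx']⟩).1
  have hHD : ∀ x ∈ H, x ∈ D → x = 1 := fun x hx hxD => congrArg Subtype.val
    (hinj (a₁ := ⟨x, hx⟩) (a₂ := 1) (by rw [map_one]; exact (QuotientGroup.eq_one_iff x).2 hxD))
  have hNcent : ∀ n ∈ NH H, ∀ h ∈ H, n * h = h * n := fun n hn h hh => by
    have := hHD _ (mul_mem (conj_mem_of_mem_NH hn hh) (inv_mem hh))
      (Subgroup.commutator_mem_commutator (Subgroup.mem_top n) (Subgroup.mem_top h))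
    rwa [mul_inv_eq_one, mul_inv_eq_iff_eq_mul] at this
  obtain ⟨P, hP⟩ := hH.pg.exists_le_sylow
  set U := (P : Subgroup G) ⊓ NH H with hU
  have hUH : U = H := by
    refine (Subgroup.eq_of_le_of_card_ge (le_inf hP (le_NH H)) ?_).symm
    rw [← hidx']
    exact hbound U (P.2.to_le inf_le_left) fun x hx =>
      Subgroup.mem_centralizer_singleton_iff.2 (hNcent x hx.2 a a.2)
  have hPH : (P : Subgroup G) = H := by
    haveI : Group.IsNilpotent ↥(P : Subgroup G) := P.2.isNilpotent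
    by_contra hne
    have hlt : H.subgroupOf (P : Subgroup G) < ⊤ := lt_top_iff_ne_top.mpr fun h =>
      hne (le_antisymm (Subgroup.subgroupOf_eq_top.mp h) hP)
    refine (Group.normalizerCondition_of_isNilpotent _ hlt).not_ge fun x hx => ?_
    show (x : G) ∈ H
    rw [← hUH]
    refine ⟨x.2, Subgroup.mem_normalizer_iff.2 fun y => ⟨fun hy => ?_, fun hy => ?_⟩⟩
    · exact ((Subgroup.mem_normalizer_iff.mp hx) ⟨y, hP hy⟩).mp hy
    · have hyP : y ∈ (P : Subgroup G) := by
        have := mul_mem (mul_mem (inv_mem x.2) (hP hy)) x.2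
        simpa [mul_assoc] using this
      exact ((Subgroup.mem_normalizer_iff.mp hx) ⟨y, hyP⟩).mpr hy
  have hDc : ¬ p ∣ Nat.card D := by
    intro hd
    obtain ⟨k, hk⟩ := IsPGroup.iff_card.1 hH.pg
    have hnd : ¬ p ∣ H.index := hPH ▸ P.not_dvd_index
    have h1 := D.card_mul_index
    rw [hidx', ← H.card_mul_index, mul_comm] at h1
    exact hnd (Nat.eq_of_mul_eq_mul_left Nat.card_pos h1 ▸ hd)
  have := H19.le_pPrimeCore (G := G) (N := D) inferInstance
    (hp.out.coprime_iff_not_dvd.2 hDc).symm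
  rw [hc.core, le_bot_iff] at this
  exact hc.commutator_ne_bot this

/-- The group is perfect. -/
theorem Crit.eq_oneIrr (hc : Crit p H) {M : Ideal AlgInt} (hM : IsPModular p M) (hp2 : p ≠ 2)
    {χ : IrrCharacter G} (hχ : commutator G ≤ H43.charKer χ) : χ = H26.oneIrr G := by
  have hH := hc.hyp
  have hle : H ≤ commutator G := by
    intro a ha
    obtain ⟨n, hn, e⟩ := mem_orb.1 (hc.inv_mem_orb hM ⟨a, ha⟩)
    have h1 : n * a * n⁻¹ * a⁻¹ ∈ commutator G :=
      Subgroup.commutator_mem_commutator (Subgroup.mem_top n) (Subgroup.mem_top a)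
    rw [show n * a * n⁻¹ = a⁻¹ from e, ← mul_inv_rev, Subgroup.inv_mem_iff] at h1
    obtain ⟨i, hi⟩ := IsPGroup.iff_orderOf.1 hH.pg ⟨a, ha⟩
    rw [Subgroup.orderOf_mk] at hi
    have hodd : Odd (p ^ i) := (hp.out.odd_of_ne_two hp2).pow
    obtain ⟨j, hj⟩ := hodd
    have h2 : a = (a * a) ^ (j + 1) := by
      rw [← pow_two, ← pow_mul, show 2 * (j + 1) = p ^ i + 1 by omega, pow_succ, ← hi,
        pow_orderOf_eq_one, one_mul]
    rw [h2]
    exact pow_mem h1 _
  have htop : commutator G = ⊤ := top_le_iff.1 (by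
    rw [← hc.ncl]; exact Subgroup.normalClosure_le_normal hle)
  rw [htop, top_le_iff] at hχ
  have h1 : χ.1 1 = 1 := irr_one_eq_one_of_commutator_le (hχ ▸ le_top)
  refine Subtype.ext (funext fun g => ?_)
  rw [H26.oneIrr_val, ← h1]
  exact H43.mem_charKer.1 (hχ ▸ Subgroup.mem_top g)

end Cfsg.Agent.H92.EC
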