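import Cfsg.Agent.H92.EC.Final

/-!
# Extremely closed abelian subgroups in groups without normal `p'`-subgroups
-/

set_option autoImplicit false
set_option linter.unusedSectionVars false

namespace Cfsg.Agent.H92.EC

universe u

variable {p : ℕ} [hp : Fact p.Prime]

theorem normal_of_core_eq_bot_aux (hp2 : p ≠ 2) (n : ℕ) : ∀ (G : Type u) [Group G] [Finite G]
    (H : Subgroup G), Nat.card G = n → Hyp p H → Cfsg.pPrimeCore p G = ⊥ → H.Normal := by
  induction n using Nat.strong_induction_on with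
  | _ n ih =>
  intro G _ _ H hn hH hO
  by_contra hnot
  apply hnot
  have hall : (∀ g : G, g ∈ NH H) → H.Normal := fun h => ⟨fun x hx g =>
    conj_mem_of_mem_NH (h g) hx⟩
  -- proper subgroups without normal `p'`-subgroups
  have hsub : ∀ K : Subgroup G, H ≤ K → K ≠ ⊤ → Cfsg.pPrimeCore p K = ⊥ → K ≤ NH H := by
    intro K hK hne hKO
    have hlt : Nat.card K < n := hn ▸ lt_of_le_of_ne K.card_le_card_group
      (fun h => hne (Subgroup.eq_top_of_card_eq K h))
    have := ih _ hlt K (H.subgroupOf K) rfl (hH.subgroupOf hK) hKO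
    exact (Subgroup.normal_subgroupOf_iff_le_normalizer hK).1 this
  by_cases hncl : Subgroup.normalClosure (H : Set G) = ⊤
  swap
  · set M := Subgroup.normalClosure (H : Set G)
    have hM : M ≤ NH H := hsub M Subgroup.le_normalClosure hncl
      (pPrimeCore_eq_bot_of_normal hO M)
    refine hall fun g => hH.mem_NH_of_conjH_le fun x hx => hM ?_
    obtain ⟨h, hh, rfl⟩ := mem_conjH.1 hx
    exact (inferInstance : M.Normal).conj_mem h (Subgroup.le_normalClosure hh) g
  -- the centre is a `p`-group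
  have hZp : IsPGroup p (Subgroup.center G) := by
    intro z
    obtain ⟨k, hk⟩ : ∃ k, k = (orderOf (z : G)).factorization p := ⟨_, rfl⟩
    refine ⟨k, Subtype.ext ?_⟩
    set w := (z : G) ^ p ^ k with hw
    have hwc : w ∈ Subgroup.center G := pow_mem z.2 _
    have hwn : (Subgroup.zpowers w).Normal := ⟨fun x hx g => by
      rw [Subgroup.mem_center_iff.1 ((Subgroup.zpowers_le.2 hwc) hx) g, mul_inv_cancel_right]
      exact hx⟩
    have hwp : (Nat.card (Subgroup.zpowers w)).Coprime p := by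
      rw [Nat.card_zpowers, hw, orderOf_pow' _ (pow_ne_zero _ hp.out.ne_zero), hk,
        Nat.gcd_eq_right (Nat.ordProj_dvd _ _)]
      exact (hp.out.coprime_iff_not_dvd.2 (Nat.not_dvd_ordCompl hp.out (orderOf_pos _).ne')).symm
    have := H19.le_pPrimeCore (G := G) hwn hwp
    rw [hO, le_bot_iff, Subgroup.zpowers_eq_bot] at this
    exact this
  by_cases hZ : Subgroup.center G = ⊥
  swap
  · set Z := Subgroup.center G
    have hlt : Nat.card (G ⧸ Z) < n := by
      rw [← hn, Z.card_eq_card_quotient_mul_card_subgroup]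
      exact lt_mul_right Nat.card_pos (by
        rw [Finite.one_lt_card_iff_nontrivial]; exact (Subgroup.nontrivial_iff_ne_bot Z).2 hZ)
    have hq := ih _ hlt (G ⧸ Z) (H.map (QuotientGroup.mk' Z)) rfl
      (hH.quotient_central Z le_rfl) (pPrimeCore_quotient_central hO Z le_rfl hZp)
    refine hall fun g => hH.mem_NH_of_map Z le_rfl ?_
    rw [NH, Subgroup.normalizer_eq_top_iff.2 hq]
    exact Subgroup.mem_top _
  -- every normal subgroup is a supplement of `H`
  have hsup : ∀ K : Subgroup G, K.Normal → K ≠ ⊥ → H ⊔ K = ⊤ := by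
    intro K hK hKne
    by_contra hne
    have hL : H ⊔ K ≤ NH H := hsub (H ⊔ K) le_sup_left hne
      (pPrimeCore_sup_eq_bot hH.pg K (pPrimeCore_eq_bot_of_normal hO K))
    have hKN : K ≤ NH H := le_sup_right.trans hL
    have hDn : (H ⊓ K).Normal := by
      refine ⟨fun x hx g => ⟨?_, hK.conj_mem x hx.2 g⟩⟩
      exact hH.mem_of (g := g) (Subgroup.mem_sup_right (mem_conjH.2 ⟨x, hx.1, rfl⟩))
        (hKN (hK.conj_mem x hx.2 g))
    have hcen : ∀ D : Subgroup G, D.Normal → (∀ h ∈ H, ∀ d ∈ D, h * d = d * h) → D = ⊥ := by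
      intro D hD hcomm
      have h1 : Subgroup.normalClosure (H : Set G) ≤ Subgroup.centralizer (D : Set G) :=
        Subgroup.normalClosure_le_normal fun h hh =>
          Subgroup.mem_centralizer_iff.2 fun d hd => (hcomm h hh d hd).symm
      rw [hncl] at h1
      rw [← le_bot_iff, ← hZ]
      intro d hd
      exact Subgroup.mem_center_iff.2 fun g =>
        (Subgroup.mem_centralizer_iff.1 (h1 (Subgroup.mem_top g)) d hd).symm
    have hD : H ⊓ K = ⊥ := hcen _ hDn fun h hh d hd => hH.comm h hh d hd.1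
    refine hKne (hcen K hK fun h hh k hk => ?_)
    have h1 : k * h * k⁻¹ * h⁻¹ ∈ H ⊓ K := ⟨H.mul_mem (conj_mem_of_mem_NH (hKN hk) hh) (H.inv_mem hh),
      by
        have := mul_mem hk (hK.conj_mem _ (inv_mem hk) h)
        simpa [mul_assoc] using this⟩
    rw [hD, Subgroup.mem_bot, mul_inv_eq_one, mul_inv_eq_iff_eq_mul] at h1
    exact h1.symm
  exfalso
  haveI := Fintype.ofFinite G
  haveI := Fintype.ofFinite H
  refine Crit.false ⟨hH, hO, hncl, hZ, hsup, hnot, ?_⟩ hp2
  -- the local kernels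
  intro c hc hc1 g Q hQ
  set C := Subgroup.centralizer ({c} : Set G) with hC
  intro v hv
  have hHC : H ≤ C := fun x hx => Subgroup.mem_centralizer_singleton_iff.2 (hH.comm x hx c hc)
  have hCne : C ≠ ⊤ := by
    intro h
    refine hc1 ((Subgroup.mem_bot).1 (hZ ▸ Subgroup.mem_center_iff.2 fun x => ?_))
    exact Subgroup.mem_centralizer_singleton_iff.1 (h ▸ Subgroup.mem_top x : x ∈ C)
  have hCn := H19.pPrimeCore_normal p C
  set R := Cfsg.pPrimeCore p C
  have hR : ¬ p ∣ Nat.card R := hp.out.coprime_iff_not_dvd.1 (H19.pPrimeCore_coprime p).symm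
  set H' := H.subgroupOf C
  have hH' : Hyp p H' := hH.subgroupOf hHC
  have hlt : Nat.card (C ⧸ R) < n := by
    refine lt_of_le_of_lt ?_ (hn ▸ lt_of_le_of_ne C.card_le_card_group
      (fun h => hCne (Subgroup.eq_top_of_card_eq C h)))
    rw [R.card_eq_card_quotient_mul_card_subgroup]
    exact Nat.le_mul_of_pos_right _ Nat.card_pos
  have hq := ih _ hlt (C ⧸ R) (H'.map (QuotientGroup.mk' R)) rfl (hH'.quotient_coprime R hR)
    (H19.pPrimeCore_quotient_pPrimeCore p)
  set f := QuotientGroup.mk' R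
  set W : Subgroup C := Q.subgroupOf C
  have hWc : ¬ p ∣ Nat.card W := fun h => hQ.coprime (h.trans (by
    rw [← Subgroup.card_map_of_injective C.subtype_injective, Subgroup.subgroupOf_map_subtype]
    exact Subgroup.card_dvd_of_le inf_le_left))
  have hWn : H' ≤ NH W := fun k hk => Subgroup.mem_normalizer_iff.2 fun y =>
    Subgroup.mem_normalizer_iff.1 (hQ.H_le_NH hk) (y : G)
  have hkey : ∀ k ∈ H', v⁻¹ * (k * v * k⁻¹) ∈ W ⊓ R := by
    intro k hk
    set x := v⁻¹ * (k * v * k⁻¹)
    have hxW : x ∈ W := mul_mem (inv_mem (show v ∈ W from hv))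
      ((Subgroup.mem_normalizer_iff.1 (hWn hk) v).1 hv)
    refine ⟨hxW, (QuotientGroup.eq_one_iff x).1 ?_⟩
    have hx : f x ∈ H'.map f := by
      have h1 := hq.conj_mem _ (Subgroup.mem_map_of_mem f hk) (f v)⁻¹
      have h2 := mul_mem h1 (inv_mem (Subgroup.mem_map_of_mem f hk))
      convert h2 using 1
      simp [x, mul_assoc]
    obtain ⟨a, ha, e⟩ := hx
    obtain ⟨i, hi⟩ := hH'.pg ⟨a, ha⟩
    refine eq_one_of_pow_card (k := i) hWc ?_ ?_
    · show (f x) ^ Nat.card W = 1
      rw [← map_pow, show x ^ Nat.card W = 1 from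
        congrArg Subtype.val (pow_card_eq_one' (x := (⟨x, hxW⟩ : W))), map_one]
    · show (f x) ^ p ^ i = 1
      rw [← e, ← map_pow, show a ^ p ^ i = 1 from congrArg Subtype.val hi, map_one]
  have hpD : ¬ p ∣ Nat.card (W ⊓ R : Subgroup C) := fun hd =>
    hR (hd.trans (Subgroup.card_dvd_of_le inf_le_right))
  have hnD : H' ≤ NH (W ⊓ R) := fun k hk => Subgroup.mem_normalizer_iff.2 fun y =>
    and_congr (Subgroup.mem_normalizer_iff.1 (hWn hk) y)
      ⟨fun hy => hCn.conj_mem y hy k, fun hy => by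
        simpa [mul_assoc] using hCn.conj_mem _ hy k⁻¹⟩
  obtain ⟨d, hd, hfix⟩ := exists_fixed hH'.pg hnD hpD hkey
  have h1 : ((v * d : C) : G) = 1 := by
    refine hQ.disj _ (mul_mem hv hd.1 : _) (Subgroup.mem_normalizer_iff.2 fun y => ?_)
    constructor
    · intro hy
      have := congrArg Subtype.val (hfix ⟨y, hHC hy⟩ hy)
      change y * ((v * d : C) : G) = ((v * d : C) : G) * y at this
      rwa [← this, mul_inv_cancel_right]
    · intro hy
      have := congrArg Subtype.val (hfix ⟨_, hHC hy⟩ hy)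
      change ((v * d : C) : G) * y * ((v * d : C) : G)⁻¹ * ((v * d : C) : G) =
        ((v * d : C) : G) * (((v * d : C) : G) * y * ((v * d : C) : G)⁻¹) at this
      rw [inv_mul_cancel_right] at this
      have h' := mul_left_cancel this
      rwa [← h'] at hy
  have h2 : v = d⁻¹ := eq_inv_of_mul_eq_one_left (Subtype.ext h1)
  rw [h2]
  exact inv_mem hd.2

/-- An extremely closed abelian `p`-subgroup, `p` odd, is normal when `O_{p'}` is trivial. -/
theorem normal_of_core_eq_bot (hp2 : p ≠ 2) {G : Type u} [Group G] [Finite G] {H : Subgroup G}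
    (hH : Hyp p H) (hO : Cfsg.pPrimeCore p G = ⊥) : H.Normal :=
  normal_of_core_eq_bot_aux hp2 _ G H rfl hH hO

end Cfsg.Agent.H92.EC
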