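import Cfsg.Agent.H92.EC.Product

/-!
# Weight spaces of an extremely closed abelian subgroup
-/

set_option autoImplicit false
set_option linter.unusedSectionVars false

open scoped ComplexConjugate

namespace Cfsg.Agent.H92.EC

variable {G : Type*} [Group G] [Finite G] [Fintype G] {p : ℕ} [hp : Fact p.Prime]
  {H : Subgroup G} [Fintype H]

section Linear

theorem Hyp.comm' (hH : Hyp p H) (a b : H) : a * b = b * a :=
  Subtype.ext (hH.comm a a.2 b b.2)

theorem lin_one (hH : Hyp p H) (ψ : Cfsg.IrrCharacter H) : ψ.1 1 = 1 :=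
  H26.irr_one_eq_one_of_comm hH.comm' ψ

theorem lin_mul (hH : Hyp p H) (ψ : Cfsg.IrrCharacter H) (a b : H) :
    ψ.1 (a * b) = ψ.1 a * ψ.1 b := by
  rw [H42.irr_central_mul ψ (Subgroup.mem_center_iff.2 fun x => hH.comm' x a) b, lin_one hH,
    div_one]

theorem lin_mul_conj (hH : Hyp p H) (ψ : Cfsg.IrrCharacter H) (a : H) :
    ψ.1 a * conj (ψ.1 a) = 1 := by
  rw [← H26.irr_inv, ← lin_mul hH, mul_inv_cancel, lin_one hH]

theorem lin_norm (hH : Hyp p H) (ψ : Cfsg.IrrCharacter H) (a : H) : ‖ψ.1 a‖ = 1 := by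
  have h := lin_mul_conj hH ψ a
  rw [Complex.mul_conj, Complex.ofReal_eq_one, Complex.normSq_eq_norm_sq] at h
  exact (pow_eq_one_iff_of_nonneg (norm_nonneg _) two_ne_zero).1 h

open scoped Classical in
theorem lin_orth (hH : Hyp p H) (a : H) :
    ∑ ψ : Cfsg.IrrCharacter H, ψ.1 a = if a = 1 then (Nat.card H : ℂ) else 0 := by
  have h := H26.column_orthogonality a (1 : H)
  have e : ∀ ψ : Cfsg.IrrCharacter H, ψ.1 a * conj (ψ.1 1) = ψ.1 a := fun ψ => by
    rw [lin_one hH, map_one, mul_one]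
  rw [Finset.sum_congr rfl fun ψ _ => e ψ] at h
  rw [h]
  have hc : Subgroup.centralizer ({(1 : H)} : Set H) = ⊤ := by
    ext u; simp [Subgroup.mem_centralizer_singleton_iff]
  rw [hc, Subgroup.card_top, H26.classIndicator]
  by_cases ha : a = 1
  · subst ha
    rw [if_pos (IsConj.refl _), if_pos rfl, mul_one]
  · rw [if_neg (fun hc' => ha (isConj_one_left.1 hc')), if_neg ha, mul_zero]

theorem lin_sum_eq_zero (hH : Hyp p H) {ψ : Cfsg.IrrCharacter H} (hψ : ψ ≠ H26.oneIrr H) :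
    ∑ b : H, ψ.1 b = 0 := by
  classical
  have h := H43.sum_mul_conj ψ (H26.oneIrr H)
  rw [if_neg hψ] at h
  simpa [H26.oneIrr_val] using h

end Linear

/-- The sum of `ψ` over the orbit of `a`. -/
noncomputable def orbSum (a : H) (ψ : Cfsg.IrrCharacter H) : ℂ := ∑ o ∈ orb a, ψ.1 o

/-- The order of `H` times the multiplicity of `ψ` in `χ`. -/
noncomputable def wt (χ : Cfsg.IrrCharacter G) (ψ : Cfsg.IrrCharacter H) : ℂ :=
  ∑ b : H, χ.1 b * conj (ψ.1 b)

theorem orbSum_one (a : H) : orbSum a (H26.oneIrr H) = ((orb a).card : ℂ) := by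
  simp [orbSum, H26.oneIrr_val]

theorem card_orb_ne_zero (a : H) : ((orb a).card : ℂ) ≠ 0 :=
  Nat.cast_ne_zero.2 (Finset.card_ne_zero_of_mem (self_mem_orb a))

theorem irr_eq_of_mem_orb (χ : Cfsg.IrrCharacter G) {a o : H} (h : o ∈ orb a) :
    χ.1 o = χ.1 a :=
  (H26.irr_eq_of_isConj χ (isConj_of_mem_orb h)).symm

/-- The product identity in the weight spaces. -/
theorem weight_identity (hH : Hyp p H) {χ : Cfsg.IrrCharacter G} (hs : Sect p H χ) (a : H)
    (ψ : Cfsg.IrrCharacter H) :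
    ((orb a).card : ℂ) * χ.1 a * wt χ ψ = χ.1 1 * (orbSum a ψ * (wt χ ψ + eta hH χ a)) := by
  classical
  have h1 : ∀ o : H, ∑ b : H, χ.1 ((o * b : H) : G) * conj (ψ.1 b) = ψ.1 o * wt χ ψ := by
    intro o
    rw [wt, Finset.mul_sum]
    refine Fintype.sum_equiv (Equiv.mulLeft o) _ _ fun b => ?_
    simp only [Equiv.coe_mulLeft]
    rw [lin_mul hH, map_mul]
    linear_combination (-(χ.1 ((o * b : H) : G) * conj (ψ.1 b))) * lin_mul_conj hH ψ o
  have h2 : ∑ b : H, (if b⁻¹ ∈ orb a then eta hH χ a else 0) * conj (ψ.1 b) =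
      eta hH χ a * orbSum a ψ := by
    rw [orbSum, Finset.mul_sum]
    simp only [ite_mul, zero_mul]
    rw [← Finset.sum_filter]
    refine Finset.sum_equiv (Equiv.inv H) (fun b => by simp) fun b _ => ?_
    simp [H26.irr_inv]
  calc ((orb a).card : ℂ) * χ.1 a * wt χ ψ
      = ∑ b : H, ((orb a).card : ℂ) * χ.1 a * χ.1 b * conj (ψ.1 b) := by
        rw [wt, Finset.mul_sum]; exact Finset.sum_congr rfl fun b _ => by ring
    _ = ∑ b : H, χ.1 1 * ((∑ o ∈ orb a, χ.1 ((o * b : H) : G) * conj (ψ.1 b)) +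
          (if b⁻¹ ∈ orb a then eta hH χ a else 0) * conj (ψ.1 b)) := by
        refine Finset.sum_congr rfl fun b _ => ?_
        rw [product_identity hH hs a b, ← Finset.sum_mul]
        ring
    _ = _ := by
        rw [← Finset.mul_sum, Finset.sum_add_distrib, Finset.sum_comm, h2,
          Finset.sum_congr rfl fun o _ => h1 o, ← Finset.sum_mul, orbSum]
        ring

theorem conj_wt (χ : Cfsg.IrrCharacter G) (ψ : Cfsg.IrrCharacter H) :
    conj (wt χ ψ) = wt χ ψ := by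
  rw [wt, map_sum]
  refine Fintype.sum_equiv (Equiv.inv H) _ _ fun b => ?_
  simp [H26.irr_inv]

theorem sum_orbSum_mul_wt (hH : Hyp p H) (χ : Cfsg.IrrCharacter G) (a : H) :
    ∑ ψ : Cfsg.IrrCharacter H, orbSum a ψ * wt χ ψ =
      (Nat.card H : ℂ) * (((orb a).card : ℂ) * χ.1 a) := by
  classical
  simp only [orbSum, wt, Finset.mul_sum, Finset.sum_mul]
  have e : ∀ (ψ : Cfsg.IrrCharacter H) (o b : H),
      ψ.1 o * (χ.1 b * conj (ψ.1 b)) = χ.1 b * ψ.1 (o * b⁻¹) := fun ψ o b => by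
    rw [lin_mul hH, H26.irr_inv]; ring
  simp only [e]
  rw [Finset.sum_comm, Finset.sum_congr rfl fun b _ => Finset.sum_comm, Finset.sum_comm]
  rw [Finset.sum_congr rfl fun o _ => Finset.sum_congr rfl fun b _ => by
    rw [← Finset.mul_sum, lin_orth hH, mul_ite, mul_zero]]
  simp only [mul_inv_eq_one, Finset.sum_ite_eq, Finset.mem_univ, if_true]
  rw [Finset.sum_congr rfl fun o ho => by rw [irr_eq_of_mem_orb χ ho], Finset.sum_const,
    nsmul_eq_mul]
  ring

/-! ## The defect -/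

theorem sum_orb_translate (χ : Cfsg.IrrCharacter G) {a o' : H} (ho : o' ∈ orb a) :
    ∑ o ∈ orb a, χ.1 ((o * o'⁻¹ : H) : G) = ∑ o ∈ orb a, χ.1 ((o * a⁻¹ : H) : G) := by
  obtain ⟨n, hn, e⟩ := mem_orb.1 ho
  let c : H → H := fun o => ⟨n * (o : G) * n⁻¹, conj_mem_of_mem_NH hn o.2⟩
  refine (Finset.sum_bij (fun o _ => c o) ?_ ?_ ?_ ?_).symm
  · intro o h
    obtain ⟨m, hm, e'⟩ := mem_orb.1 h
    refine mem_orb.2 ⟨n * m, mul_mem hn hm, ?_⟩
    show _ = n * (o : G) * n⁻¹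
    rw [← e']; group
  · intro o _ o₂ _ h
    exact Subtype.ext (mul_left_cancel (mul_right_cancel (congrArg Subtype.val h)))
  · intro o h
    obtain ⟨m, hm, e'⟩ := mem_orb.1 h
    refine ⟨⟨n⁻¹ * (o : G) * n, by simpa using conj_mem_of_mem_NH (inv_mem hn) o.2⟩,
      mem_orb.2 ⟨n⁻¹ * m, mul_mem (inv_mem hn) hm, ?_⟩, Subtype.ext ?_⟩
    · show _ = n⁻¹ * (o : G) * n
      rw [← e']; group
    · show n * (n⁻¹ * (o : G) * n) * n⁻¹ = o
      group
  · intro o _
    rw [← H26.irr_conj χ ((o * a⁻¹ : H) : G) n]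
    refine congrArg χ.1 ?_
    rw [Subgroup.coe_mul, Subgroup.coe_mul, Subgroup.coe_inv, Subgroup.coe_inv, ← e]
    show _ = n * (o : G) * n⁻¹ * _
    group

open scoped Classical in
theorem conj_eta (hH : Hyp p H) {χ : Cfsg.IrrCharacter G} (hs : Sect p H χ) (a : H) :
    conj (eta hH χ a) = eta hH χ a := by
  have h := product_identity hH hs a a⁻¹
  rw [inv_inv, if_pos (self_mem_orb a)] at h
  set S := ∑ o ∈ orb a, χ.1 ((o * a⁻¹ : H) : G) with hS
  have hAS : ((orb a).card : ℂ) * S =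
      ∑ o' ∈ orb a, ∑ o ∈ orb a, χ.1 ((o * o'⁻¹ : H) : G) := by
    rw [Finset.sum_congr rfl fun o' ho => sum_orb_translate χ ho, Finset.sum_const, nsmul_eq_mul]
  have hSr : conj S = S := by
    refine mul_left_cancel₀ (card_orb_ne_zero a) ?_
    rw [hAS]
    calc ((orb a).card : ℂ) * conj S = conj (((orb a).card : ℂ) * S) := by
          rw [map_mul, Complex.conj_natCast]
      _ = _ := by
          rw [hAS, map_sum, Finset.sum_comm]
          refine Finset.sum_congr rfl fun o' _ => ?_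
          rw [map_sum]
          refine Finset.sum_congr rfl fun o _ => ?_
          rw [← H26.irr_inv, ← Subgroup.coe_inv, mul_inv_rev, inv_inv]
  have hd : conj (χ.1 1) = χ.1 1 := by rw [H43.irr_charDegree_spec, Complex.conj_natCast]
  have h' := congrArg conj h
  simp only [map_mul, map_add, Complex.conj_natCast, hd, hSr, Subgroup.coe_inv, H26.irr_inv,
    Complex.conj_conj] at h' h
  refine add_left_cancel (a := S) (mul_left_cancel₀ (H26.irr_one_ne_zero χ) ?_)
  rw [← h', ← h]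
  ring

theorem re_eta_nonpos (hH : Hyp p H) (χ : Cfsg.IrrCharacter G) (a : H) :
    (eta hH χ a).re ≤ 0 := by
  rw [eta, Complex.sub_re, sub_nonpos, H43.irr_charDegree_spec, Complex.natCast_re]
  refine (Complex.re_le_norm _).trans ?_
  rw [mu, norm_div, Complex.norm_natCast, div_le_iff₀ (by exact_mod_cast fiber_card_pos hH a)]
  refine (norm_sum_le _ _).trans ?_
  refine (Finset.sum_le_sum fun g _ => norm_irr_le χ _).trans ?_
  rw [Finset.sum_const, nsmul_eq_mul, mul_comm]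

theorem eta_ne_zero (hH : Hyp p H) {χ : Cfsg.IrrCharacter G}
    (hf : ∀ g, χ.1 g = χ.1 1 → g = 1) {a : H} (hfix : ∃ g : G, g * (a : G) * g⁻¹ ∉ H) :
    eta hH χ a ≠ 0 := by
  intro h0
  have hmu : mu hH χ a = χ.1 1 := sub_eq_zero.1 h0
  rw [mu, div_eq_iff (Nat.cast_ne_zero.2 (fiber_card_pos hH a).ne'), mul_comm] at hmu
  have hd : χ.1 1 = ((Cfsg.charDegree χ.1 : ℝ) : ℂ) := by
    rw [H43.irr_charDegree_spec]; simp
  rw [hd] at hmu
  have h1 := eq_of_sum_eq_max _ _ _ (fun g _ => norm_irr_le χ _) hmu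
  obtain ⟨g, hg⟩ := hfix
  apply hg
  obtain ⟨n, hn, e⟩ := mem_orb.1 (colH_mem_orb hH g a)
  have hmem : n⁻¹ * g ∈ fiber hH a a := by
    rw [mem_fiber, hH.col_mul_left a.2 (inv_mem hn), ← coe_colH hH g a, ← e]
    group
  have h2 := hf _ ((h1 _ hmem).trans hd.symm)
  rw [mul_inv_eq_one] at h2
  have h3 : g * (a : G) * g⁻¹ = n * (a : G) * n⁻¹ := by
    conv_rhs => rw [← h2]
    group
  rw [h3]
  exact conj_mem_of_mem_NH hn a.2

/-- A character non-zero on an orbit forces the orbit to be real. -/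
theorem inv_mem_orb_of_ne_zero (hH : Hyp p H) {χ : Cfsg.IrrCharacter G} (hs : Sect p H χ) {a : H}
    (heta : eta hH χ a ≠ 0) (hne : χ.1 a ≠ 0) : a⁻¹ ∈ orb a := by
  classical
  have hA := card_orb_ne_zero a
  have hd := H26.irr_one_ne_zero χ
  set c := ((orb a).card : ℂ) * χ.1 a / χ.1 1 with hc
  have hc0 : c ≠ 0 := div_ne_zero (mul_ne_zero hA hne) hd
  have hsum : ∀ ψ : Cfsg.IrrCharacter H, wt χ ψ + eta hH χ a ≠ 0 := by
    intro ψ h0
    have h := weight_identity hH hs a ψ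
    rw [h0, mul_zero, mul_zero] at h
    have hw : wt χ ψ = 0 := (mul_eq_zero.1 h).resolve_left (mul_ne_zero hA hne)
    rw [hw, zero_add] at h0
    exact heta h0
  have hX : ∀ ψ : Cfsg.IrrCharacter H, orbSum a ψ = c * (wt χ ψ / (wt χ ψ + eta hH χ a)) := by
    intro ψ
    have h := weight_identity hH hs a ψ
    have := hsum ψ
    rw [hc]
    field_simp
    linear_combination -h
  have hreal : ∀ ψ : Cfsg.IrrCharacter H, conj (orbSum a ψ) * c = orbSum a ψ * conj c := by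
    intro ψ
    have hr : conj (wt χ ψ / (wt χ ψ + eta hH χ a)) = wt χ ψ / (wt χ ψ + eta hH χ a) := by
      rw [map_div₀, map_add, conj_wt, conj_eta hH hs]
    rw [hX ψ, map_mul, hr]
    ring
  have hcr : conj c = c := by
    have h := hreal (H26.oneIrr H)
    rw [orbSum_one, Complex.conj_natCast] at h
    exact (mul_left_cancel₀ hA h).symm
  have hXr : ∀ ψ : Cfsg.IrrCharacter H, conj (orbSum a ψ) = orbSum a ψ := fun ψ =>
    mul_right_cancel₀ hc0 ((hreal ψ).trans (by rw [hcr]))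
  by_contra hna
  have h1 : ∑ ψ : Cfsg.IrrCharacter H, orbSum a ψ * ψ.1 a = 0 := by
    simp only [orbSum, Finset.sum_mul, ← lin_mul hH]
    rw [Finset.sum_comm, Finset.sum_congr rfl fun o _ => lin_orth hH (o * a)]
    refine Finset.sum_eq_zero fun o ho => if_neg fun h => hna ?_
    rw [← eq_inv_of_mul_eq_one_left h]
    exact ho
  have h2 : ∑ ψ : Cfsg.IrrCharacter H, conj (orbSum a ψ) * ψ.1 a = (Nat.card H : ℂ) := by
    simp only [orbSum, map_sum, Finset.sum_mul, ← H26.irr_inv, ← lin_mul hH]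
    rw [Finset.sum_comm, Finset.sum_congr rfl fun o _ => lin_orth hH (o⁻¹ * a)]
    simp [inv_mul_eq_one, self_mem_orb]
  rw [Finset.sum_congr rfl fun ψ _ => by rw [hXr], h1] at h2
  exact Nat.card_pos.ne' (Nat.cast_eq_zero.1 h2.symm)

theorem orbSum_mul (hH : Hyp p H) (a c : H) (ψ : Cfsg.IrrCharacter H) :
    orbSum a ψ * orbSum c ψ = ∑ o ∈ orb a, ∑ o' ∈ orb c, ψ.1 (o * o') := by
  rw [orbSum, orbSum, Finset.sum_mul_sum]
  exact Finset.sum_congr rfl fun o _ => Finset.sum_congr rfl fun o' _ => (lin_mul hH ψ o o').symm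

theorem sum_orbSum_mul (hH : Hyp p H) {a c : H} (hc : c⁻¹ ∈ orb c) (hne : c ∉ orb a) :
    ∑ ψ : Cfsg.IrrCharacter H, orbSum a ψ * orbSum c ψ = 0 := by
  classical
  simp only [orbSum_mul hH]
  rw [Finset.sum_comm]
  refine Finset.sum_eq_zero fun o ho => ?_
  rw [Finset.sum_comm, Finset.sum_congr rfl fun o' _ => lin_orth hH (o * o')]
  refine Finset.sum_eq_zero fun o' ho' => if_neg fun h => hne ?_
  rw [eq_inv_of_mul_eq_one_left h] at ho
  have h1 : o'⁻¹ ∈ orb c := by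
    have := inv_mem_orb_inv.2 ho'
    rwa [orb_eq_of_mem hc] at this
  exact orb_eq_of_mem ho ▸ orb_eq_of_mem h1 ▸ self_mem_orb c

theorem sum_orbSum_sq (hH : Hyp p H) {a : H} (ha : a⁻¹ ∈ orb a) :
    ∑ ψ : Cfsg.IrrCharacter H, orbSum a ψ * orbSum a ψ =
      (Nat.card H : ℂ) * ((orb a).card : ℂ) := by
  classical
  simp only [orbSum_mul hH]
  rw [Finset.sum_comm, Finset.sum_congr rfl fun o _ => Finset.sum_comm]
  rw [Finset.sum_congr rfl fun o _ => Finset.sum_congr rfl fun o' _ => lin_orth hH (o * o')]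
  have e : ∀ o ∈ orb a, ∑ o' ∈ orb a, (if o * o' = 1 then (Nat.card H : ℂ) else 0) =
      (Nat.card H : ℂ) := by
    intro o ho
    rw [Finset.sum_eq_single o⁻¹ (fun o' _ h => if_neg fun h' => h (eq_inv_of_mul_eq_one_right h'))
      (fun h => (h ?_).elim), if_pos (mul_inv_cancel o)]
    have := inv_mem_orb_inv.2 ho
    rwa [orb_eq_of_mem ha] at this
  rw [Finset.sum_congr rfl e, Finset.sum_const, nsmul_eq_mul]
  ring

/-- The relation between two real orbits. -/
theorem two_orbit_relation (hH : Hyp p H) {χ : Cfsg.IrrCharacter G} (hs : Sect p H χ) {a c : H}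
    (ha : a⁻¹ ∈ orb a) (hc : c⁻¹ ∈ orb c) (hne : c ∉ orb a) :
    ∃ N : ℕ, (N : ℂ) * (eta hH χ a - eta hH χ c) * χ.1 1 =
      ((orb a).card : ℂ) * ((orb c).card : ℂ) * eta hH χ a * χ.1 c := by
  classical
  refine ⟨((orb a ×ˢ orb a ×ˢ orb c).filter fun t => t.1 * t.2.1 * t.2.2 = 1).card, ?_⟩
  set A := ((orb a).card : ℂ) with hA
  set B := ((orb c).card : ℂ) with hB
  set q := (Nat.card H : ℂ) with hq
  have hq0 : q ≠ 0 := Nat.cast_ne_zero.2 Nat.card_pos.ne'
  have hd := H26.irr_one_ne_zero χ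
  set S := ∑ ψ : Cfsg.IrrCharacter H, orbSum a ψ * orbSum a ψ * orbSum c ψ with hS
  have hcount : S = q * (((orb a ×ˢ orb a ×ˢ orb c).filter
      fun t => t.1 * t.2.1 * t.2.2 = 1).card : ℂ) := by
    rw [hS]
    have e : ∀ ψ : Cfsg.IrrCharacter H, orbSum a ψ * orbSum a ψ * orbSum c ψ =
        ∑ o ∈ orb a, ∑ o' ∈ orb a, ∑ o'' ∈ orb c, ψ.1 (o * o' * o'') := by
      intro ψ
      rw [orbSum_mul hH, Finset.sum_mul]
      refine Finset.sum_congr rfl fun o _ => ?_
      rw [Finset.sum_mul]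
      refine Finset.sum_congr rfl fun o' _ => ?_
      rw [orbSum, Finset.mul_sum]
      exact Finset.sum_congr rfl fun o'' _ => (lin_mul hH ψ _ o'').symm
    simp only [e]
    rw [Finset.sum_comm, Finset.sum_congr rfl fun o _ => Finset.sum_comm,
      Finset.sum_congr rfl fun o _ => Finset.sum_congr rfl fun o' _ => Finset.sum_comm]
    simp only [lin_orth hH]
    rw [Finset.card_filter, Nat.cast_sum, Finset.mul_sum, Finset.sum_product]
    refine Finset.sum_congr rfl fun o _ => ?_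
    rw [Finset.sum_product]
    refine Finset.sum_congr rfl fun o' _ => Finset.sum_congr rfl fun o'' _ => ?_
    split_ifs <;> simp [hq]
  set T1 := ∑ ψ : Cfsg.IrrCharacter H, orbSum a ψ * orbSum c ψ * wt χ ψ with hT1
  set T2 := ∑ ψ : Cfsg.IrrCharacter H, orbSum a ψ * orbSum a ψ * wt χ ψ with hT2
  have wa := weight_identity hH hs a
  have wc := weight_identity hH hs c
  have e1 : A * χ.1 a * (q * (B * χ.1 c)) = χ.1 1 * T1 := by
    have : ∑ ψ : Cfsg.IrrCharacter H, (A * χ.1 a * wt χ ψ) * orbSum c ψ =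
        ∑ ψ : Cfsg.IrrCharacter H, (χ.1 1 * (orbSum a ψ * orbSum c ψ * wt χ ψ) +
          χ.1 1 * eta hH χ a * (orbSum a ψ * orbSum c ψ)) :=
      Finset.sum_congr rfl fun ψ _ => by rw [wa ψ]; ring
    rw [Finset.sum_add_distrib, ← Finset.mul_sum, ← Finset.mul_sum, sum_orbSum_mul hH hc hne,
      mul_zero, add_zero, ← hT1] at this
    rw [← this, ← sum_orbSum_mul_wt hH χ c, Finset.mul_sum]
    exact Finset.sum_congr rfl fun ψ _ => by ring
  have e2 : A * χ.1 a * (q * (A * χ.1 a)) = χ.1 1 * T2 + χ.1 1 * eta hH χ a * (q * A) := by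
    have : ∑ ψ : Cfsg.IrrCharacter H, (A * χ.1 a * wt χ ψ) * orbSum a ψ =
        ∑ ψ : Cfsg.IrrCharacter H, (χ.1 1 * (orbSum a ψ * orbSum a ψ * wt χ ψ) +
          χ.1 1 * eta hH χ a * (orbSum a ψ * orbSum a ψ)) :=
      Finset.sum_congr rfl fun ψ _ => by rw [wa ψ]; ring
    rw [Finset.sum_add_distrib, ← Finset.mul_sum, ← Finset.mul_sum, sum_orbSum_sq hH ha,
      ← hT2] at this
    rw [← this, ← sum_orbSum_mul_wt hH χ a, Finset.mul_sum]
    exact Finset.sum_congr rfl fun ψ _ => by ring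
  have e3 : χ.1 1 * S * (eta hH χ a - eta hH χ c) = A * χ.1 a * T1 - B * χ.1 c * T2 := by
    rw [hS, hT1, hT2, Finset.mul_sum, Finset.mul_sum, Finset.mul_sum, Finset.sum_mul,
      ← Finset.sum_sub_distrib]
    refine Finset.sum_congr rfl fun ψ _ => ?_
    linear_combination (orbSum a ψ * orbSum a ψ) * wc ψ - (orbSum a ψ * orbSum c ψ) * wa ψ
  rw [hcount] at e3
  refine mul_left_cancel₀ hq0 (mul_left_cancel₀ hd ?_)
  linear_combination χ.1 1 * e3 - A * χ.1 a * e1 + B * χ.1 c * e2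

/-- Two real orbits carry values of opposite sign. -/
theorem re_mul_re_neg (hH : Hyp p H) {χ : Cfsg.IrrCharacter G} (hs : Sect p H χ) {a c : H}
    (ha : a⁻¹ ∈ orb a) (hc : c⁻¹ ∈ orb c) (hne : c ∉ orb a) (hea : eta hH χ a ≠ 0)
    (hec : eta hH χ c ≠ 0) (ha0 : (χ.1 a).re ≠ 0) (hc0 : (χ.1 c).re ≠ 0) :
    (χ.1 a).re * (χ.1 c).re < 0 := by
  have key : ∀ u v : H, u⁻¹ ∈ orb u → v⁻¹ ∈ orb v → v ∉ orb u → ∃ N : ℕ,
      (N : ℝ) * ((eta hH χ u).re - (eta hH χ v).re) * (Cfsg.charDegree χ.1 : ℝ) =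
      ((orb u).card : ℝ) * ((orb v).card : ℝ) * (eta hH χ u).re * (χ.1 v).re := by
    intro u v hu hv huv
    obtain ⟨N, hN⟩ := two_orbit_relation hH hs hu hv huv
    refine ⟨N, ?_⟩
    rw [H43.irr_charDegree_spec] at hN
    have him : ∀ w, (eta hH χ w).im = 0 := fun w => Complex.conj_eq_iff_im.1 (conj_eta hH hs w)
    have := congrArg Complex.re hN
    simpa [Complex.mul_re, Complex.mul_im, him] using this
  have hneg : ∀ w : H, eta hH χ w ≠ 0 → (eta hH χ w).re < 0 := fun w hw =>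
    lt_of_le_of_ne (re_eta_nonpos hH χ w) fun h0 =>
      hw (Complex.ext h0 (Complex.conj_eq_iff_im.1 (conj_eta hH hs w)))
  obtain ⟨N, hN⟩ := key a c ha hc hne
  obtain ⟨N', hN'⟩ := key c a hc ha (fun h => hne (mem_orb_comm.1 h))
  set ea := (eta hH χ a).re
  set ec := (eta hH χ c).re
  set x := (χ.1 a).re
  set y := (χ.1 c).re
  set A := ((orb a).card : ℝ)
  set B := ((orb c).card : ℝ)
  have hA : 0 < A := Nat.cast_pos.2 (Finset.card_pos.2 ⟨a, self_mem_orb a⟩)
  have hB : 0 < B := Nat.cast_pos.2 (Finset.card_pos.2 ⟨c, self_mem_orb c⟩)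
  have hd : (0 : ℝ) < Cfsg.charDegree χ.1 := Nat.cast_pos.2 (H43.irr_charDegree_pos χ)
  have hAB := mul_pos hA hB
  have hea' : ea < 0 := hneg a hea
  have hec' : ec < 0 := hneg c hec
  rcases lt_trichotomy ea ec with hlt | heq | hgt
  · have h1 : A * B * ea * y ≤ 0 := by
      rw [← hN]
      exact mul_nonpos_of_nonpos_of_nonneg
        (mul_nonpos_of_nonneg_of_nonpos (Nat.cast_nonneg N) (sub_nonpos.2 hlt.le)) hd.le
    have h2 : 0 ≤ B * A * ec * x := by
      rw [← hN']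
      exact mul_nonneg (mul_nonneg (Nat.cast_nonneg N') (sub_nonneg.2 hlt.le)) hd.le
    have hy : 0 < y := by
      refine lt_of_le_of_ne ?_ (Ne.symm hc0)
      exact nonneg_of_mul_nonpos_right h1 (mul_neg_of_pos_of_neg hAB hea')
    have hx : x < 0 := by
      refine lt_of_le_of_ne ?_ ha0
      exact nonpos_of_mul_nonneg_right h2 (mul_neg_of_pos_of_neg (mul_pos hB hA) hec')
    exact mul_neg_of_neg_of_pos hx hy
  · exfalso
    rw [heq, sub_self, mul_zero, zero_mul] at hN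
    exact mul_ne_zero (mul_ne_zero hAB.ne' hec'.ne) hc0 hN.symm
  · have h1 : 0 ≤ A * B * ea * y := by
      rw [← hN]
      exact mul_nonneg (mul_nonneg (Nat.cast_nonneg N) (sub_nonneg.2 hgt.le)) hd.le
    have h2 : B * A * ec * x ≤ 0 := by
      rw [← hN']
      exact mul_nonpos_of_nonpos_of_nonneg
        (mul_nonpos_of_nonneg_of_nonpos (Nat.cast_nonneg N') (sub_nonpos.2 hgt.le)) hd.le
    have hy : y < 0 := by
      refine lt_of_le_of_ne ?_ hc0
      exact nonpos_of_mul_nonneg_right h1 (mul_neg_of_pos_of_neg hAB hea')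
    have hx : 0 < x := by
      refine lt_of_le_of_ne ?_ (Ne.symm ha0)
      exact nonneg_of_mul_nonpos_right h2 (mul_neg_of_pos_of_neg (mul_pos hB hA) hec')
    exact mul_neg_of_pos_of_neg hx hy

/-! ## Positivity -/

/-- The twisted sum over `H` at a translate is bounded by the weight. -/
theorem norm_twist_le (hH : Hyp p H) (χ : Cfsg.IrrCharacter G) (ψ : Cfsg.IrrCharacter H) (u : G) :
    ‖∑ b : H, conj (ψ.1 b) * χ.1 (u * b)‖ ≤ (wt χ ψ).re := by
  classical
  set v : G → ℂ := fun h => ∑ b : H, conj (ψ.1 b) * χ.1 (h * b) with hv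
  set K : ℝ := (Nat.card H : ℝ) * ((Nat.card G : ℝ) / (Cfsg.charDegree χ.1 : ℝ)) with hK
  have hKpos : 0 < K := mul_pos (Nat.cast_pos.2 Nat.card_pos)
    (div_pos (Nat.cast_pos.2 Nat.card_pos) (Nat.cast_pos.2 (H43.irr_charDegree_pos χ)))
  have key : ∀ x, ∑ h : G, v (x * h) * conj (v h) = (K : ℂ) * v x := by
    intro x
    simp only [hv, map_sum, Finset.sum_mul, Finset.mul_sum, map_mul, Complex.conj_conj]
    rw [Finset.sum_comm]
    have e : ∀ b b' : H, ∑ h : G, conj (ψ.1 b) * χ.1 (x * h * b) *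
        (ψ.1 b' * conj (χ.1 (h * b'))) =
        conj (ψ.1 (b'⁻¹ * b)) *
          ((Nat.card G : ℂ) / χ.1 1 * χ.1 (x * ((b'⁻¹ * b : H) : G))) := by
      intro b b'
      rw [← (H43.sum_mul_inv_mul χ χ (x * ((b'⁻¹ * b : H) : G))).trans (if_pos rfl),
        Finset.mul_sum]
      refine Fintype.sum_equiv ((Equiv.mulLeft x).trans (Equiv.mulRight (b : G))) _ _ fun h => ?_
      simp only [Equiv.trans_apply, Equiv.coe_mulLeft, Equiv.coe_mulRight, lin_mul hH, map_mul,
        H26.irr_inv, Complex.conj_conj, Subgroup.coe_mul, Subgroup.coe_inv]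
      rw [← H26.irr_inv χ (h * b'), show (x * h * (b : G))⁻¹ * (x * ((b' : G)⁻¹ * b)) =
        (b : G)⁻¹ * (h⁻¹ * (b' : G)⁻¹ * 1) * b by
          rw [mul_inv_rev, mul_inv_rev]; group]
      rw [show (b : G)⁻¹ * (h⁻¹ * (b' : G)⁻¹ * 1) * b =
        ((b : G)⁻¹ * h⁻¹) * ((b' : G)⁻¹ * 1) * (((b : G)⁻¹) ⁻¹) by group]
      rw [show ((b : G)⁻¹ * h⁻¹) * ((b' : G)⁻¹ * 1) * (((b : G)⁻¹) ⁻¹) =
        (b : G)⁻¹ * (h⁻¹ * (b' : G)⁻¹) * (((b : G)⁻¹) ⁻¹) by group, H26.irr_conj,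
        show (h * (b' : G))⁻¹ = (b' : G)⁻¹ * (h⁻¹ * (b' : G)⁻¹) * ((b' : G)⁻¹)⁻¹ by group,
        H26.irr_conj]
      ring
    rw [Finset.sum_congr rfl fun b _ => Finset.sum_comm]
    simp only [e]
    rw [Finset.sum_comm]
    rw [Finset.sum_comm]
    have e2 : ∀ b' : H, ∑ b : H, conj (ψ.1 (b'⁻¹ * b)) *
        ((Nat.card G : ℂ) / χ.1 1 * χ.1 (x * ((b'⁻¹ * b : H) : G))) =
        (Nat.card G : ℂ) / χ.1 1 * v x := by
      intro b'
      simp only [hv, Finset.mul_sum]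
      refine Fintype.sum_equiv (Equiv.mulLeft b'⁻¹) _ _ fun b => ?_
      simp only [Equiv.coe_mulLeft]
      ring
    rw [Finset.sum_congr rfl fun b' _ => e2 b', Finset.sum_const, nsmul_eq_mul, Finset.card_univ,
      ← Nat.card_eq_fintype_card, hK, H43.irr_charDegree_spec, ← Finset.mul_sum]
    push_cast
    simp only [hv, Finset.mul_sum]
    refine Finset.sum_congr rfl fun b _ => ?_
    ring
  have h1 := key 1
  simp only [one_mul, Complex.mul_conj] at h1
  have hnorm : ∑ h : G, ‖v h‖ ^ 2 = K * (wt χ ψ).re := by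
    have h2 := congrArg Complex.re h1
    rw [Complex.re_sum] at h2
    simp only [Complex.ofReal_re, Complex.re_ofReal_mul, Complex.normSq_eq_norm_sq] at h2
    rw [h2, wt, hv]
    simp only [one_mul]
    simp_rw [mul_comm (χ.1 _) (conj _)]
  have hu := congrArg norm (key u)
  rw [norm_mul, Complex.norm_real, Real.norm_of_nonneg hKpos.le] at hu
  refine le_of_mul_le_mul_left ?_ hKpos
  rw [← hu, ← hnorm]
  refine (norm_sum_le _ _).trans ?_
  have h3 : ∑ h : G, ‖v (u * h)‖ ^ 2 = ∑ h : G, ‖v h‖ ^ 2 :=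
    Fintype.sum_equiv (Equiv.mulLeft u) _ _ fun h => rfl
  have h4 : ∀ h : G, ‖v (u * h) * conj (v h)‖ ≤ (‖v (u * h)‖ ^ 2 + ‖v h‖ ^ 2) / 2 := by
    intro h
    rw [norm_mul, Complex.norm_conj]
    nlinarith [sq_nonneg (‖v (u * h)‖ - ‖v h‖)]
  refine (Finset.sum_le_sum fun h _ => h4 h).trans ?_
  rw [← Finset.sum_div, Finset.sum_add_distrib, h3]
  linarith

/-- The weights bound the defect. -/
theorem norm_wt_add_eta_le (hH : Hyp p H) {χ : Cfsg.IrrCharacter G} (hs : Sect p H χ) (a : H)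
    (ψ : Cfsg.IrrCharacter H) : ‖wt χ ψ + eta hH χ a‖ ≤ (wt χ ψ).re := by
  classical
  set c : ℂ := ((fiber hH a a).card : ℂ) with hc
  have h : ∑ g ∈ fiber hH a a, ∑ b : H, conj (ψ.1 b) * χ.1 (g * (a : G) * g⁻¹ * b) =
      c * (ψ.1 a * (wt χ ψ + eta hH χ a)) := by
    rw [Finset.sum_comm]
    have e : ∀ b : H, ∑ g ∈ fiber hH a a, conj (ψ.1 b) * χ.1 (g * (a : G) * g⁻¹ * b) =
        c * (conj (ψ.1 b) * χ.1 ((a * b : H) : G)) +
          if b = a⁻¹ then c * (ψ.1 a * eta hH χ a) else 0 := by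
      intro b
      by_cases hb : b = a⁻¹
      · subst hb
        rw [if_pos rfl, mul_inv_cancel, Subgroup.coe_one, Subgroup.coe_inv, ← Finset.mul_sum,
          sum_fiber_regular hH χ (self_mem_orb a), H26.irr_inv, Complex.conj_conj, eta, hc]
        ring
      · rw [if_neg hb, add_zero, Finset.sum_congr rfl fun g hg => by
          rw [value_of_ne hH hs hg fun h => hb (eq_inv_of_mul_eq_one_right h)],
          Finset.sum_const, nsmul_eq_mul]
    rw [Finset.sum_congr rfl fun b _ => e b, Finset.sum_add_distrib, Finset.sum_ite_eq',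
      if_pos (Finset.mem_univ _), mul_add, mul_add, ← Finset.mul_sum]
    congr 1
    congr 1
    rw [wt, Finset.mul_sum]
    refine Fintype.sum_equiv (Equiv.mulLeft a) _ _ fun b => ?_
    simp only [Equiv.coe_mulLeft]
    rw [lin_mul hH, map_mul]
    linear_combination (-(conj (ψ.1 b) * χ.1 ((a * b : H) : G))) * lin_mul_conj hH ψ a
  have hn := congrArg norm h
  rw [norm_mul, norm_mul, lin_norm hH, one_mul, hc, Complex.norm_natCast] at hn
  refine le_of_mul_le_mul_left ?_ (Nat.cast_pos.2 (fiber_card_pos hH a) : (0:ℝ) < _)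
  rw [← hn]
  refine (norm_sum_le _ _).trans ?_
  refine (Finset.sum_le_sum fun g _ => norm_twist_le hH χ ψ _).trans ?_
  rw [Finset.sum_const, nsmul_eq_mul]

end Cfsg.Agent.H92.EC
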