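import Cfsg.Agent.H68.RankOne
import Cfsg.Agent.H43.LinearTwist
import Cfsg.Agent.H43.CharTools
import Cfsg.Agent.H40.PPart
import Cfsg.Agent.H92.EC.Inherit

/-!
# An irreducible character above the centralizer of an element of prime order
-/

set_option autoImplicit false
set_option linter.unusedSectionVars false

open scoped ComplexConjugate

namespace Cfsg.Agent.H92.EC

open Cfsg

variable {G : Type*} [Group G] [Fintype G] {p : ℕ} [hp : Fact p.Prime]

theorem classInner_sub_right' (φ ψ ψ' : G → ℂ) :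
    classInner φ (ψ - ψ') = classInner φ ψ - classInner φ ψ' := by
  simp [classInner, mul_sub, Finset.sum_sub_distrib]

theorem classInner_add_right' (φ ψ ψ' : G → ℂ) :
    classInner φ (ψ + ψ') = classInner φ ψ + classInner φ ψ' := by
  simp [classInner, mul_add, Finset.sum_add_distrib]

/-- The difference of two irreducible characters has norm two. -/
theorem classInner_irr_sub {K : Type*} [Group K] [Fintype K] {θ θ' : IrrCharacter K}
    (hne : θ' ≠ θ) : classInner (θ'.1 - θ.1) (θ'.1 - θ.1) = 2 := by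
  classical
  rw [H26.classInner_sub_left, classInner_sub_right', classInner_sub_right', H26.classInner_irr,
    H26.classInner_irr, H26.classInner_irr, H26.classInner_irr, if_pos rfl, if_pos rfl,
    if_neg hne, if_neg hne.symm]
  norm_num

theorem exists_twisted_extension (a : G) (R : Subgroup G) [R.Normal] (hR : ¬ p ∣ Nat.card R)
    (ha : a ^ p = 1) (hG : ∀ g : G, ∃ i : ℕ, ∃ r ∈ R, g = a ^ i * r)
    (μ : G →* ℂˣ) (hμR : ∀ r ∈ R, μ r = 1) (hμa : μ a ≠ 1) (hp2 : p ≠ 2)
    [Fintype (Subgroup.centralizer ({a} : Set G))]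
    (ζ : IrrCharacter (Subgroup.centralizer ({a} : Set G)))
    (hζ : ∀ l : Subgroup.centralizer ({a} : Set G), (l : G) = a → ζ.1 l = ζ.1 1) :
    ∃ χ : IrrCharacter G, ∃ ε : ℂ, (ε = 1 ∨ ε = -1) ∧
      ∀ l : Subgroup.centralizer ({a} : Set G), μ (l : G) ≠ 1 → χ.1 l = ε * ζ.1 l := by
  classical
  revert ζ
  set L := Subgroup.centralizer ({a} : Set G) with hL
  intro ζ hζ
  let aL : L := ⟨a, Subgroup.mem_centralizer_singleton_iff.2 rfl⟩
  have hμp : μ a ^ p = 1 := by rw [← map_pow, ha, map_one]
  have hμ2 : μ a * μ a ≠ 1 := by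
    intro h
    have h1 : orderOf (μ a) ∣ 2 := orderOf_dvd_of_pow_eq_one (by rw [pow_two]; exact h)
    rw [orderOf_eq_prime hμp hμa] at h1
    exact hp2 ((Nat.prime_dvd_prime_iff_eq hp.out Nat.prime_two).1 h1)
  set m : L →* ℂˣ := μ.comp L.subtype with hm
  set ζ' := H43.irrTwist ζ m with hζ'
  set ζ'' := H43.irrTwist ζ (m * m) with hζ''
  have h10 := H26.irr_one_ne_zero ζ
  have hne' : ζ' ≠ ζ := by
    intro h
    have := congrFun (congrArg Subtype.val h) aL
    rw [hζ', H43.irrTwist_apply, hζ aL rfl, mul_eq_left₀ h10] at this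
    exact hμa (Units.ext this)
  have hne'' : ζ'' ≠ ζ := by
    intro h
    have := congrFun (congrArg Subtype.val h) aL
    rw [hζ'', H43.irrTwist_apply, hζ aL rfl, mul_eq_left₀ h10] at this
    exact hμ2 (Units.ext this)
  set f : L → ℂ := ζ'.1 - ζ.1 with hf
  set f2 : L → ℂ := ζ''.1 - ζ.1 with hf2
  have hfval : ∀ l : L, f l = ((μ (l : G) : ℂ) - 1) * ζ.1 l := fun l => by
    rw [hf, Pi.sub_apply, hζ', H43.irrTwist_apply]
    simp [hm]; ring
  have hf2val : ∀ l : L, f2 l = ((μ (l : G) : ℂ) + 1) * f l := fun l => by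
    rw [hf2, Pi.sub_apply, hζ'', H43.irrTwist_apply, hfval]
    simp [hm]; ring
  -- elements of the support determine the subgroup
  have hTI : ∀ (l : L) (x : G), x⁻¹ * (l : G) * x ∈ L → μ (l : G) ≠ 1 → x ∈ L := by
    intro l x hx hl
    have hdec : ∀ y : G, y ∈ L → ∃ i : ℕ, ∃ r ∈ R, y = a ^ i * r ∧
        IsPPart p y (a ^ i) := by
      intro y hy
      obtain ⟨i, r, hr, e⟩ := hG y
      refine ⟨i, r, hr, e, ?_⟩
      have hrL : r ∈ L := by
        have : r = (a ^ i)⁻¹ * y := by rw [e]; group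
        rw [this]
        exact mul_mem (inv_mem (pow_mem (Subgroup.mem_centralizer_singleton_iff.2 rfl) _)) hy
      have hc : Commute (a ^ i) r :=
        (show Commute a r from (Subgroup.mem_centralizer_singleton_iff.1 hrL).symm).pow_left i
      obtain ⟨j, -, hj⟩ := (Nat.dvd_prime_pow hp.out (m := 1)).1
        (show orderOf (a ^ i) ∣ p ^ 1 from orderOf_dvd_of_pow_eq_one (by
          rw [pow_one, ← pow_mul, mul_comm, pow_mul, ha, one_pow]))
      rw [e]
      refine H40.isPPart_mul hc hj fun h => hR (h.trans ?_)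
      rw [show r = ((⟨r, hr⟩ : R) : G) from rfl, Subgroup.orderOf_coe]
      exact orderOf_dvd_natCard _
    obtain ⟨i, r, hr, e, hpi⟩ := hdec l l.2
    obtain ⟨i', r', hr', e', hpi'⟩ := hdec _ hx
    have h1 := H40.isPPart_conj x⁻¹ hpi
    rw [inv_inv] at h1
    have h2 := H40.isPPart_unique h1 hpi'
    -- both powers have the same image under `μ`
    have hμi : μ a ^ i ≠ 1 := by
      intro h
      apply hl
      rw [e, map_mul, map_pow, h, hμR r hr, one_mul]
    have hμeq : μ a ^ i = μ a ^ i' := by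
      have := congrArg μ h2
      simpa [map_mul, map_pow, mul_comm, mul_left_comm, mul_assoc] using this
    have hpo : orderOf (μ a) = p := orderOf_eq_prime hμp hμa
    have haeq : a ^ i' = a ^ i := by
      have h3 : i % p = i' % p := by
        rw [← hpo]; exact (pow_inj_mod).1 hμeq
      have hao : orderOf a ∣ p := orderOf_dvd_of_pow_eq_one ha
      rw [← pow_mod_orderOf, ← pow_mod_orderOf (n := i)]
      congr 1
      rw [← Nat.mod_mod_of_dvd i hao, ← Nat.mod_mod_of_dvd i' hao, h3]
    rw [haeq] at h2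
    have hcomm : Commute x (a ^ i) := by
      show x * a ^ i = a ^ i * x
      calc x * a ^ i = x * (x⁻¹ * a ^ i * x) := by rw [h2]
        _ = a ^ i * x := by group
    obtain ⟨k, hk⟩ : ∃ k : ℕ, (a ^ i) ^ k = a := by
      have hi : ¬ p ∣ i := fun ⟨t, ht⟩ => hμi (by rw [ht, pow_mul, hμp, one_pow])
      obtain ⟨k, -, hk⟩ := Nat.exists_mul_mod_eq_one_of_coprime
        (hp.out.coprime_iff_not_dvd.2 hi).symm hp.out.one_lt
      refine ⟨k, ?_⟩
      conv_rhs => rw [← pow_one a]
      rw [← pow_mul, ← Nat.mod_add_div (i * k) p, hk, pow_add, pow_mul, ha, one_pow, mul_one]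
    exact Subgroup.mem_centralizer_singleton_iff.2 (hk ▸ hcomm.pow_right k).eq
  -- values of the induced function
  set F := indFun L f with hF
  have hFval : ∀ l : L, μ (l : G) ≠ 1 → F l = f l := by
    intro l hl
    have hterm : ∀ x : G, extendByZero L f (x⁻¹ * (l : G) * x) =
        if x ∈ L then f l else 0 := by
      intro x
      by_cases hx : x⁻¹ * (l : G) * x ∈ L
      · have hxL := hTI l x hx hl
        rw [if_pos hxL]
        have e := Subtype.val_injective.extend_apply f 0 ⟨_, hx⟩
        rw [extendByZero, e, hfval, hfval]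
        congr 1
        · simp [mul_comm, mul_left_comm]
        · have := H26.irr_conj ζ l (⟨x, hxL⟩ : L)⁻¹
          rw [← this]
          exact congrArg ζ.1 (Subtype.ext (by simp))
      · have : x ∉ L := fun hxL => hx (mul_mem (mul_mem (inv_mem hxL) l.2) hxL)
        rw [if_neg this]
        exact Function.extend_apply' _ _ _ fun ⟨h, he⟩ => hx (he ▸ h.2)
    simp only [hF, indFun]
    rw [Finset.sum_congr rfl fun x _ => hterm x, ← Finset.sum_filter, Finset.sum_const,
      nsmul_eq_mul, ← Fintype.card_subtype, ← Nat.card_eq_fintype_card, ← mul_assoc,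
      inv_mul_cancel₀ (Nat.cast_ne_zero.2 Nat.card_pos.ne'), one_mul]
  have hFc : IsClassFunction G F := H68.isClassFunction_indFun L f
  have hf1 : f 1 = 0 := by rw [hfval]; simp
  have hF1 : F 1 = 0 := by
    simp only [hF, indFun]
    rw [Finset.sum_eq_zero, mul_zero]
    intro x _
    rw [mul_one, inv_mul_cancel, extendByZero]
    exact (Subtype.val_injective.extend_apply f 0 (1 : L)).trans hf1
  -- coefficients
  set z : IrrCharacter G → ℤ := fun χ =>
    (H43.mult (fun l : L => χ.1 l) ζ' : ℤ) - H43.mult (fun l : L => χ.1 l) ζ with hz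
  have hchar : ∀ χ : IrrCharacter G, IsCharacter L (fun l : L => χ.1 l) := fun χ =>
    H26.isCharacter_comp (H26.irr_isCharacter χ) L.subtype
  have hcoef : ∀ χ : IrrCharacter G, classInner χ.1 F = (z χ : ℂ) := by
    intro χ
    rw [hF, H68.classInner_indFun_right L (H26.irr_isClassFunction χ), hf, classInner_sub_right',
      H43.classInner_eq_mult (hchar χ), H43.classInner_eq_mult (hchar χ), hz]
    push_cast; rfl
  have hcoef' : ∀ χ : IrrCharacter G, classInner F χ.1 = (z χ : ℂ) := by
    intro χ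
    have : classInner F χ.1 = conj (classInner χ.1 F) := by
      simp only [classInner, map_mul, map_inv₀, Complex.conj_natCast, map_sum, Complex.conj_conj,
        mul_comm]
    rw [this, hcoef, map_intCast]
  have hexp : F = ∑ χ : IrrCharacter G, (z χ : ℂ) • χ.1 := by
    conv_lhs => rw [H26.class_function_expansion F hFc]
    exact Finset.sum_congr rfl fun χ _ => by rw [hcoef']
  have hnorm : ∑ χ : IrrCharacter G, z χ * z χ = 2 := by
    have h1 : classInner F F = 2 := by
      conv_lhs => arg 2; rw [hF]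
      rw [H68.classInner_indFun_right L hFc, ← classInner_irr_sub hne', ← hf]
      simp only [classInner]
      congr 1
      refine Finset.sum_congr rfl fun l _ => ?_
      by_cases hl : μ (l : G) = 1
      · simp [hfval, hl]
      · rw [hFval l hl]
    conv_lhs at h1 => arg 1; rw [hexp]
    rw [H26.classInner_sum_left] at h1
    simp only [H26.classInner_smul_left, hcoef, ← Int.cast_mul] at h1
    exact_mod_cast h1
  have hdeg : ∑ χ : IrrCharacter G, z χ * (charDegree χ.1 : ℤ) = 0 := by
    have h1 := hF1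
    rw [hexp] at h1
    simp only [Finset.sum_apply, Pi.smul_apply, smul_eq_mul, H43.irr_charDegree_spec] at h1
    exact_mod_cast h1
  obtain ⟨χ1, hχ1⟩ : ∃ χ, 0 < z χ := by
    by_contra! h
    have h0 : ∀ χ, z χ = 0 := by
      have := (Finset.sum_eq_zero_iff_of_nonpos fun χ _ =>
        mul_nonpos_of_nonpos_of_nonneg (h χ) (Nat.cast_nonneg _)).1 hdeg
      intro χ
      exact (mul_eq_zero.1 (this χ (Finset.mem_univ _))).resolve_right
        (by exact_mod_cast (H43.irr_charDegree_pos χ).ne')
    simp [h0] at hnorm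
  obtain ⟨χ2, hχ2⟩ : ∃ χ, z χ < 0 := by
    by_contra! h
    have := (Finset.sum_eq_zero_iff_of_nonneg fun χ _ =>
        mul_nonneg (h χ) (Nat.cast_nonneg _)).1 hdeg χ1 (Finset.mem_univ _)
    have := mul_pos hχ1 (Nat.cast_pos.2 (H43.irr_charDegree_pos χ1) : (0 : ℤ) < _)
    omega
  have h12 : χ1 ≠ χ2 := fun h => by subst h; omega
  have hsplit : z χ1 * z χ1 + (z χ2 * z χ2 +
      ∑ χ ∈ ((Finset.univ.erase χ1).erase χ2), z χ * z χ) = 2 := by
    rw [Finset.add_sum_erase _ (fun χ => z χ * z χ)
        (Finset.mem_erase.2 ⟨h12.symm, Finset.mem_univ χ2⟩),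
      Finset.add_sum_erase _ (fun χ => z χ * z χ) (Finset.mem_univ χ1), hnorm]
  have hrest : 0 ≤ ∑ χ ∈ ((Finset.univ.erase χ1).erase χ2), z χ * z χ :=
    Finset.sum_nonneg fun χ _ => mul_self_nonneg _
  have hz1 : z χ1 = 1 := by nlinarith
  have hz2 : z χ2 = -1 := by nlinarith
  have hrest0 : ∀ χ ∈ ((Finset.univ.erase χ1).erase χ2), z χ = 0 := by
    intro χ hχ
    have h0 : ∑ χ ∈ ((Finset.univ.erase χ1).erase χ2), z χ * z χ = 0 := by
      rw [hz1, hz2] at hsplit; linarith
    exact mul_self_eq_zero.1 ((Finset.sum_eq_zero_iff_of_nonneg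
      fun χ _ => mul_self_nonneg _).1 h0 χ hχ)
  have hF12 : F = χ1.1 - χ2.1 := by
    rw [hexp, ← Finset.add_sum_erase _ _ (Finset.mem_univ χ1),
      ← Finset.add_sum_erase _ _ (Finset.mem_erase.2 ⟨h12.symm, Finset.mem_univ χ2⟩),
      Finset.sum_eq_zero fun χ hχ => by rw [hrest0 χ hχ, Int.cast_zero, zero_smul], hz1, hz2]
    simp [sub_eq_add_neg]
  -- twisting
  set t1 := H43.irrTwist χ1 μ with ht1
  set t2 := H43.irrTwist χ2 μ with ht2
  set φ : G → ℂ := fun g => (μ g : ℂ) + 1 with hφ
  have hφc : IsClassFunction G φ := fun g h => by simp [hφ, mul_comm, mul_left_comm]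
  have hv : indFun L f2 = (t1.1 + χ1.1) - (t2.1 + χ2.1) := by
    rw [show f2 = fun l : L => φ l * f l from funext fun l => hf2val l,
      H68.indFun_mul_classFun L hφc, ← hF, hF12]
    funext g
    simp [hφ, ht1, ht2, H43.irrTwist_apply]; ring
  have hn2 : classInner ((t1.1 + χ1.1) - (t2.1 + χ2.1)) ((t1.1 + χ1.1) - (t2.1 + χ2.1)) = 2 := by
    conv_lhs => arg 2; rw [← hv]
    rw [H68.classInner_indFun_right L (hv ▸ H68.isClassFunction_indFun L f2),
      ← classInner_irr_sub hne'', ← hf2]
    simp only [classInner]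
    congr 1
    refine Finset.sum_congr rfl fun l _ => ?_
    by_cases hl : μ (l : G) = 1
    · simp [hf2val, hfval, hl]
    · rw [show (t1.1 + χ1.1 - (t2.1 + χ2.1)) l = φ l * F l from by
        rw [hF12]; simp [hφ, ht1, ht2, H43.irrTwist_apply]; ring, hFval l hl]
      rw [show f2 l = φ l * f l from hf2val l]
  have hinj : t1 ≠ t2 := by
    intro h
    refine h12 (Subtype.ext (funext fun g => ?_))
    have := congrFun (congrArg Subtype.val h) g
    rw [ht1, ht2, H43.irrTwist_apply, H43.irrTwist_apply] at this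
    exact mul_right_cancel₀ (Units.ne_zero _) this
  have hcase : χ1 = t2 ∨ χ2 = t1 := by
    by_contra! h
    simp only [H26.classInner_sub_left, H26.classInner_add_left, classInner_sub_right',
      classInner_add_right', H26.classInner_irr, hinj, hinj.symm, h12, h12.symm, h.1, h.1.symm,
      h.2, h.2.symm, if_true, if_false] at hn2
    split_ifs at hn2 <;> norm_num at hn2
  have hkey : ∀ l : L, μ (l : G) ≠ 1 → χ1.1 l - χ2.1 l = ((μ (l : G) : ℂ) - 1) * ζ.1 l := by
    intro l hl
    rw [← hfval, ← hFval l hl, hF12]; rfl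
  rcases hcase with h | h
  · refine ⟨χ2, 1, Or.inl rfl, fun l hl => ?_⟩
    have h1 := hkey l hl
    rw [h, ht2, H43.irrTwist_apply] at h1
    have hne : ((μ (l : G) : ℂ) - 1) ≠ 0 := sub_ne_zero.2 fun e => hl (Units.ext e)
    refine mul_left_cancel₀ hne ?_
    linear_combination h1
  · refine ⟨χ1, -1, Or.inr rfl, fun l hl => ?_⟩
    have h1 := hkey l hl
    rw [h, ht1, H43.irrTwist_apply] at h1
    have hne : ((μ (l : G) : ℂ) - 1) ≠ 0 := sub_ne_zero.2 fun e => hl (Units.ext e)
    refine mul_left_cancel₀ hne ?_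
    linear_combination -h1

end Cfsg.Agent.H92.EC
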